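import Mathlib
import Cfsg.Agent.Lib.H26.Components
import Cfsg.Agent.Lib.H53.CharP

set_option autoImplicit false
open Cfsg
open scoped commutatorElement

namespace H53.CharPFit

universe u
variable {K : Type u} [Group K] [Finite K]

theorem gFitting_eq_pCore_iff {p : ℕ} [hp : Fact p.Prime] :
    generalizedFittingSubgroup K = pCore p K ↔ Subgroup.centralizer (pCore p K : Set K) ≤ pCore p K := by
  constructor
  · intro h
    rw [← h]
    exact H26.Components.centralizer_gFitting_le
  · intro h
    apply le_antisymm
    · refine sup_le ?_ ?_
      · have h1 : layer K ≤ pCore p K := by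
          refine le_trans ?_ h
          rw [← Subgroup.commutator_eq_bot_iff_le_centralizer]
          exact H26.Components.commutator_layer_pCore p
        have h2 : layer K = ⊥ := by
          apply H53.CharP.eq_bot_of_le_commutator (P := pCore p K) (R := layer K) _ h1 h1
          · rw [H26.Components.commutator_layer_self]
          · exact (H1.Cores.isPGroup_pCore p).isNilpotent
        rw [h2]; exact bot_le
      · rw [H1.Cores.fittingSubgroup_eq_iSup_pCore]
        apply iSup_le
        intro q
        by_cases hq : (q : ℕ) = p
        · rw [hq]
        · refine le_trans ?_ h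
          rw [← Subgroup.commutator_eq_bot_iff_le_centralizer]
          have hqf : Fact (Nat.Prime (q : ℕ)) := ⟨q.2⟩
          have n1 := H1.Cores.pCore_normal (G := K) (q : ℕ)
          have n2 := H1.Cores.pCore_normal (G := K) p
          apply Subgroup.commutator_eq_bot_of_disjoint
          apply IsPGroup.disjoint_of_ne (q : ℕ) p hq
          · exact H1.Cores.isPGroup_pCore _
          · exact H1.Cores.isPGroup_pCore _
    · exact (H1.Cores.pCore_le_fittingSubgroup p).trans le_sup_right

end H53.CharPFit
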