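import Cfsg.Agent.Lib.H1.Frat
import Cfsg.Agent.Lib.H52.PmDefs

/-!
Frattini subgroups of `p`-groups and the functor `S0`.
-/

set_option autoImplicit false

open Subgroup H52.PM
open scoped commutatorElement

namespace H53.GN

variable {X : Type*} [Group X] {p : ℕ} [hp : Fact p.Prime]

theorem frattini_eq_Fr [Finite X] (h : IsPGroup p X) : frattini X = Fr p (⊤ : Subgroup X) := by
  have hn : Group.IsNilpotent X := h.isNilpotent
  apply le_antisymm
  · apply H1.Frat.frattini_le_of_elementary (p := p)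
    · exact le_sup_left
    · intro x
      exact mem_sup_right (subset_closure ⟨x, mem_top x, rfl⟩)
  · apply sup_le
    · exact H1.Frat.commutator_le_frattini
    · rw [closure_le]
      rintro _ ⟨x, -, rfl⟩
      exact H1.Frat.pow_mem_frattini h x

theorem Fr_map {Y : Type*} [Group Y] (f : X →* Y) (H : Subgroup X) : (Fr p H).map f = Fr p (H.map f) := by
  unfold Fr
  rw [Subgroup.map_sup, map_commutator, MonoidHom.map_closure]
  congr 2
  ext x
  constructor
  · rintro ⟨_, ⟨y, hy, rfl⟩, rfl⟩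
    exact ⟨f y, ⟨y, hy, rfl⟩, by simp⟩
  · rintro ⟨_, ⟨y, hy, rfl⟩, rfl⟩
    exact ⟨y ^ p, ⟨y, hy, rfl⟩, by simp⟩

theorem frattini_map_eq (H : Subgroup X) [Finite H] (h : IsPGroup p H) :
    (frattini H).map H.subtype = Fr p H := by
  rw [frattini_eq_Fr h, Fr_map, ← MonoidHom.range_eq_map, range_subtype]

theorem powerClosure_eq (H : Subgroup X) :
    Cfsg.powerClosure p 1 H = Subgroup.closure {x | ∃ s ∈ H, x = s ^ p} := by
  unfold Cfsg.powerClosure
  congr 1
  ext x
  constructor
  · rintro ⟨y, hy, rfl⟩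
    exact ⟨y, hy, by simp⟩
  · rintro ⟨y, hy, rfl⟩
    exact ⟨y, hy, by simp⟩

/-- the subgroup `S₀` of S2808 is `S0 p ⊤` -/
theorem S0_eq [Finite X] (h : IsPGroup p X) :
    (if p = 2 then ⁅frattini X, (⊤ : Subgroup X)⁆ ⊔ (frattini ↥(frattini X)).map (frattini X).subtype
      else if p = 3 then ⁅⁅frattini X, (⊤ : Subgroup X)⁆, (⊤ : Subgroup X)⁆ ⊔
        (frattini ↥(frattini X)).map (frattini X).subtype
      else ⁅frattini X, (⊤ : Subgroup X)⁆ ⊔ Cfsg.powerClosure p 1 (⊤ : Subgroup X)) =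
      S0 p (⊤ : Subgroup X) := by
  unfold S0
  rw [frattini_map_eq (p := p) (frattini X) (h.to_subgroup _), frattini_eq_Fr h, powerClosure_eq]

theorem char_Fr {H : Subgroup X} (h : H.Characteristic) : (Fr p H).Characteristic := by
  rw [characteristic_iff_map_eq] at *
  intro φ
  rw [Fr_map, h]

/-- if `S0` is trivial, the Frattini subgroup satisfies the exceptional conditions -/
theorem exc_of_S0 [Finite X] [Nontrivial X] (h : IsPGroup p X) (h0 : S0 p (⊤ : Subgroup X) = ⊥) :
    Cfsg.IsElementaryAbelian p (frattini X) ∧ (p = 2 → frattini X ≤ center X) ∧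
    (p = 3 → frattini X ≤ Subgroup.upperCentralSeries X 2) ∧
    (3 < p → frattini X ≤ center X ∧ Monoid.exponent X = p) := by
  have key : ∀ {A : Subgroup X}, ⁅A, (⊤ : Subgroup X)⁆ = ⊥ → A ≤ center X := by
    intro A hA a ha
    rw [mem_center_iff]
    intro g
    have h1 : ⁅a, g⁆ ∈ ⁅A, (⊤ : Subgroup X)⁆ := commutator_mem_commutator ha (mem_top g)
    rw [hA, mem_bot] at h1
    exact (commutatorElement_eq_one_iff_mul_comm.mp h1).symm
  have hel : ∀ {A : Subgroup X}, Fr p A = ⊥ → Cfsg.IsElementaryAbelian p A := by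
    intro A hA
    refine ⟨⟨⟨?_⟩⟩, fun x hx => ?_⟩
    · rintro ⟨x, hx⟩ ⟨y, hy⟩
      have h1 : ⁅x, y⁆ ∈ Fr p A := mem_sup_left (commutator_mem_commutator hx hy)
      rw [hA, mem_bot] at h1
      exact Subtype.ext (commutatorElement_eq_one_iff_mul_comm.mp h1)
    · have h1 : x ^ p ∈ Fr p A := mem_sup_right (subset_closure ⟨x, hx, rfl⟩)
      rwa [hA, mem_bot] at h1
  rw [frattini_eq_Fr h]
  unfold S0 at h0
  by_cases h2 : p = 2
  · rw [if_pos h2] at h0
    have h3 := (sup_eq_bot_iff.mp h0)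
    refine ⟨hel h3.2, fun _ => key h3.1, fun h4 => by omega, fun h4 => by omega⟩
  · rw [if_neg h2] at h0
    by_cases h4 : p = 3
    · rw [if_pos h4] at h0
      have h3 := (sup_eq_bot_iff.mp h0)
      refine ⟨hel h3.2, fun h5 => by omega, fun _ => ?_, fun h5 => by omega⟩
      have h5 := key h3.1
      intro x hx
      rw [Subgroup.mem_upperCentralSeries_succ_iff]
      intro g
      have h6 : ⁅x, g⁆ ∈ center X := h5 (commutator_mem_commutator hx (mem_top g))
      rw [Subgroup.upperCentralSeries_one]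
      exact h6
    · rw [if_neg h4] at h0
      have h3 := (sup_eq_bot_iff.mp h0)
      have h5 := key h3.1
      have h6 : ∀ x : X, x ^ p = 1 := by
        intro x
        have h1 : x ^ p ∈ Subgroup.closure {x : X | ∃ s ∈ (⊤ : Subgroup X), x = s ^ p} :=
          subset_closure ⟨x, mem_top x, rfl⟩
        rwa [h3.2, mem_bot] at h1
      refine ⟨⟨⟨⟨?_⟩⟩, fun x _ => h6 x⟩, fun h7 => absurd h7 h2, fun h7 => absurd h7 h4, fun _ => ⟨h5, ?_⟩⟩
      · rintro ⟨x, hx⟩ ⟨y, hy⟩
        exact Subtype.ext (mem_center_iff.mp (h5 hy) x)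
      · rcases (Nat.dvd_prime hp.out).mp (Monoid.exponent_dvd_of_forall_pow_eq_one h6) with h7 | h7
        · exfalso
          have := Monoid.exp_eq_one_iff.mp h7
          exact not_subsingleton X this
        · exact h7

end H53.GN
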