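import Mathlib

/-!
The ambient group for pushing up with a finite family of groups over the same `S`.
-/

set_option autoImplicit false

open Equiv

universe u v w

namespace H53.GN

/-- left translation on the first coordinate -/
def lt (H : Type*) [Group H] (K : Type*) : H →* Perm (H × K) where
  toFun h := Equiv.prodCongr (Equiv.mulLeft h) (Equiv.refl K)
  map_one' := by
    ext x <;> simp
  map_mul' a b := by
    ext x <;> simp [mul_assoc]

theorem lt_apply {H : Type*} [Group H] {K : Type*} (h : H) (x : H × K) : lt H K h x = (h * x.1, x.2) := rfl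

theorem lt_injective (H : Type*) [Group H] (K : Type*) [Nonempty K] : Function.Injective (lt H K) := by
  intro a b hab
  obtain ⟨k⟩ := ‹Nonempty K›
  have := congrArg (fun f : Perm (H × K) => (f (1, k)).1) hab
  simpa [lt_apply] using this

/-- two free actions of the same degree are isomorphic -/
theorem exists_equiv {S H : Type*} [Group S] [Group H] [Finite S] [Finite H] (τ : S →* H)
    (hτ : Function.Injective τ) {k m : ℕ} (h : Nat.card H * k = Nat.card S * m) :
    ∃ e : H × Fin k ≃ S × Fin m, ∀ s w, e (lt H (Fin k) (τ s) w) = lt S (Fin m) s (e w) := by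
  classical
  obtain ⟨T, hT, -⟩ := Subgroup.exists_isComplement_right τ.range (1 : H)
  have hb : Function.Bijective (fun x : S × T => τ x.1 * (x.2 : H)) := by
    have h2 := hT.comp
      (((MonoidHom.ofInjective hτ).toEquiv.prodCongr (Equiv.refl T)).bijective)
    exact h2
  set b : S × T ≃ H := Equiv.ofBijective _ hb with hbdef
  have hcard : Nat.card S * Nat.card T = Nat.card H := by
    rw [← Nat.card_prod]
    exact Nat.card_congr b
  have hS : 0 < Nat.card S := Nat.card_pos
  have hk : Nat.card (T × Fin k) = m := by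
    rw [Nat.card_prod, Nat.card_fin]
    apply Nat.eq_of_mul_eq_mul_left hS
    rw [← mul_assoc, hcard, h]
  have : Finite T := Finite.of_injective (fun t : T => b (1, t)) (by
    intro x y hxy
    have := b.injective hxy
    exact (Prod.ext_iff.mp this).2)
  set c : T × Fin k ≃ Fin m := Finite.equivFinOfCardEq hk with hc
  refine ⟨(b.symm.prodCongr (Equiv.refl (Fin k))).trans
    ((Equiv.prodAssoc S T (Fin k)).trans ((Equiv.refl S).prodCongr c)), ?_⟩
  rintro s ⟨x, j⟩
  have hx : b.symm (τ s * x) = (s * (b.symm x).1, (b.symm x).2) := by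
    rw [Equiv.symm_apply_eq]
    have h1 : τ (b.symm x).1 * ((b.symm x).2 : H) = x := b.apply_symm_apply x
    change τ s * x = τ (s * (b.symm x).1) * ((b.symm x).2 : H)
    rw [map_mul, mul_assoc, h1]
  simp only [lt_apply, Equiv.trans_apply, Equiv.prodCongr_apply, Prod.map_apply, Equiv.prodAssoc_apply,
    Equiv.coe_refl, id_eq, hx]

/-- **the ambient group** of a finite family -/
theorem ambient {ι : Type*} [Finite ι] (S : Type u) [Group S] [Finite S] (G : ι → Type v)
    [∀ i, Group (G i)] [∀ i, Finite (G i)] (τ : ∀ i, S →* G i) (hτ : ∀ i, Function.Injective (τ i)) :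
    ∃ (X : Type u) (_ : Group X) (_ : Finite X) (σ : S →* X) (f : ∀ i, G i →* X),
      Function.Injective σ ∧ (∀ i, Function.Injective (f i)) ∧ (∀ i s, f i (τ i s) = σ s) ∧
      ∀ φ : S ≃* S, ∃ x : X, ∀ s, x * σ s * x⁻¹ = σ (φ s) := by
  classical
  have := Fintype.ofFinite ι
  set m : ℕ := ∏ i, Nat.card (G i) with hm
  have hm0 : 0 < m := Finset.prod_pos fun i _ => Nat.card_pos
  have hd : ∀ i, Nat.card (G i) ∣ m := fun i => Finset.dvd_prod_of_mem _ (Finset.mem_univ i)
  have hS : 0 < Nat.card S := Nat.card_pos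
  set k : ι → ℕ := fun i => Nat.card S * (m / Nat.card (G i)) with hk
  have hk0 : ∀ i, 0 < k i := fun i =>
    Nat.mul_pos hS (Nat.div_pos (Nat.le_of_dvd hm0 (hd i)) Nat.card_pos)
  have hkm : ∀ i, Nat.card (G i) * k i = Nat.card S * m := by
    intro i
    obtain ⟨c, hc⟩ := hd i
    have hG : 0 < Nat.card (G i) := Nat.card_pos
    simp only [hk]
    rw [hc, Nat.mul_div_cancel_left _ hG]
    ring
  choose e he using fun i => exists_equiv (τ i) (hτ i) (hkm i)
  have : NeZero m := ⟨hm0.ne'⟩
  have hne : ∀ i, NeZero (k i) := fun i => ⟨(hk0 i).ne'⟩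
  refine ⟨Perm (S × Fin m), inferInstance, inferInstance, lt S (Fin m),
    fun i => (Equiv.permCongrHom (e i)).toMonoidHom.comp (lt (G i) (Fin (k i))), lt_injective _ _, ?_, ?_, ?_⟩
  · intro i
    exact (Equiv.permCongrHom (e i)).injective.comp (lt_injective (G i) (Fin (k i)))
  · intro i s
    apply Equiv.ext
    intro w
    change e i (lt (G i) (Fin (k i)) (τ i s) ((e i).symm w)) = _
    rw [he, Equiv.apply_symm_apply]
  · intro φ
    refine ⟨Equiv.prodCongr φ.toEquiv (Equiv.refl (Fin m)), fun s => ?_⟩
    rw [mul_inv_eq_iff_eq_mul]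
    apply Equiv.ext
    rintro ⟨t, j⟩
    simp [lt_apply]

end H53.GN
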