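import Cfsg.Agent.Lib.H13.Norm
import Cfsg.Agent.Lib.H13.Thompson

/-!
# Odd automorphisms and non-commuting conjugates: the graph argument
-/

set_option autoImplicit false
set_option linter.unusedSectionVars false
set_option linter.unusedVariables false

namespace H53.GR

open Subgroup
open scoped commutatorElement

section

variable {P : Type*} [Group P]

/-- the local data of a member -/
structure Mb (q : ℕ) (B Z X ZP : Subgroup P) : Prop where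
  le : X ≤ B
  nor : ∀ b ∈ B, ∀ x ∈ X, b * x * b⁻¹ ∈ X
  inv : ∀ x ∈ X, x * x = 1
  ZX : Z ≤ X
  ZB : ∀ z ∈ Z, ∀ b ∈ B, z * b = b * z
  cX : Nat.card X = q * Nat.card Z
  cO : Nat.card B = q * Nat.card ↥(B ⊓ centralizer (X : Set P))
  cen : ∀ b ∈ B, b ∉ centralizer (X : Set P) → ∀ x ∈ X, x * b = b * x → x ∈ Z
  key : ∀ b ∈ B, b ∉ centralizer (X : Set P) → ∀ x ∈ X, ⁅x, b⁆ ∈ ZP → x ∈ Z
  sq : ∀ Y ≤ B, Y ⊔ (B ⊓ centralizer (X : Set P)) = B →
    (∀ c ∈ B ⊓ centralizer (X : Set P), ∀ y ∈ Y, (c * c) * y = y * (c * c)) →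
    ∀ c ∈ B ⊓ centralizer (X : Set P), c * c ∈ X → c * c ∈ ZP
  cm : ∀ Y ≤ B, Y ⊔ (B ⊓ centralizer (X : Set P)) = B →
    (∀ c ∈ ⁅B ⊓ centralizer (X : Set P), B ⊓ centralizer (X : Set P)⁆, ∀ y ∈ Y, c * y = y * c) →
    ∀ c ∈ ⁅B ⊓ centralizer (X : Set P), B ⊓ centralizer (X : Set P)⁆, c ∈ X → c ∈ ZP

variable {q : ℕ} {B Z X Y U W ZX ZY ZU ZW : Subgroup P}

theorem mem_cen {X : Subgroup P} {u : P} : u ∈ centralizer (X : Set P) ↔ ∀ x ∈ X, x * u = u * x :=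
  mem_centralizer_iff

theorem le_cen_comm {X Y : Subgroup P} : Y ≤ centralizer (X : Set P) ↔ X ≤ centralizer (Y : Set P) :=
  Subgroup.le_centralizer_iff

theorem Mb.ab (m : Mb q B Z X ZX) : X ≤ centralizer (X : Set P) := by
  intro x hx
  rw [mem_cen]
  intro y hy
  have h1 := m.inv _ (mul_mem hx hy)
  have h2 := m.inv x hx
  have h3 := m.inv y hy
  have e1 : x⁻¹ = x := inv_eq_of_mul_eq_one_left h2
  have e2 : y⁻¹ = y := inv_eq_of_mul_eq_one_left h3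
  have h4 : (x * y)⁻¹ = x * y := inv_eq_of_mul_eq_one_left h1
  rw [mul_inv_rev, e1, e2] at h4
  exact h4

theorem Mb.norO (m : Mb q B Z X ZX) : B ≤ normalizer ((B ⊓ centralizer (X : Set P) : Subgroup P) : Set P) := by
  have key : ∀ b ∈ B, ∀ c ∈ B ⊓ centralizer (X : Set P), b * c * b⁻¹ ∈ B ⊓ centralizer (X : Set P) := by
    intro b hb c hc
    obtain ⟨h1, h2⟩ := Subgroup.mem_inf.1 hc
    refine Subgroup.mem_inf.2 ⟨mul_mem (mul_mem hb h1) (inv_mem hb), ?_⟩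
    rw [mem_cen]
    intro x hx
    have h3 := m.nor b⁻¹ (inv_mem hb) x hx
    rw [inv_inv] at h3
    have h4 := mem_cen.1 h2 _ h3
    calc x * (b * c * b⁻¹) = b * ((b⁻¹ * x * b) * c) * b⁻¹ := by group
      _ = b * (c * (b⁻¹ * x * b)) * b⁻¹ := by rw [h4]
      _ = b * c * b⁻¹ * x := by group
  intro b hb
  rw [mem_normalizer_iff]
  intro c
  constructor
  · exact key b hb c
  · intro h
    have h1 := key b⁻¹ (inv_mem hb) _ h
    have e : b⁻¹ * (b * c * b⁻¹) * b⁻¹⁻¹ = c := by group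
    rwa [e] at h1

theorem Mb.infZ (mX : Mb q B Z X ZX) (mY : Mb q B Z Y ZY) (hne : ¬ Y ≤ centralizer (X : Set P)) :
    X ⊓ centralizer (Y : Set P) ≤ Z := by
  obtain ⟨y, hy, hyX⟩ := Set.not_subset.1 hne
  rintro x ⟨hx, hxY⟩
  exact mX.cen y (mY.le hy) hyX x hx (mem_cen.1 hxY y hy).symm

/-- `B = Y O_X` -/
theorem Mb.sup [Finite P] (mX : Mb q B Z X ZX) (mY : Mb q B Z Y ZY) (hne : ¬ Y ≤ centralizer (X : Set P)) :
    Y ⊔ (B ⊓ centralizer (X : Set P)) = B := by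
  have h1 := H13.Thompson.card_sup_mul_card_inf (mY.le.trans mX.norO)
  have h2 : Y ⊓ (B ⊓ centralizer (X : Set P)) = Z := by
    apply le_antisymm
    · rintro y ⟨h3, -, h4⟩
      exact mY.infZ mX (fun h => hne (le_cen_comm.1 h)) ⟨h3, h4⟩
    · intro z hz
      refine Subgroup.mem_inf.2 ⟨mY.ZX hz, Subgroup.mem_inf.2 ⟨mY.le (mY.ZX hz), ?_⟩⟩
      rw [mem_cen]
      intro x hx
      exact (mY.ZB z hz x (mX.le hx)).symm
  rw [h2, mY.cX] at h1
  apply Subgroup.eq_of_le_of_card_ge (sup_le mY.le inf_le_left)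
  have h3 : Nat.card B * Nat.card Z = Nat.card ↥(Y ⊔ (B ⊓ centralizer (X : Set P))) * Nat.card Z := by
    rw [h1, mX.cO]; ring
  exact (Nat.eq_of_mul_eq_mul_right Nat.card_pos h3).le

theorem Mb.dec [Finite P] (mX : Mb q B Z X ZX) (mY : Mb q B Z Y ZY) (hne : ¬ Y ≤ centralizer (X : Set P)) {b : P}
    (hb : b ∈ B) : ∃ y ∈ Y, ∃ o ∈ B ⊓ centralizer (X : Set P), b = y * o := by
  rw [← mX.sup mY hne] at hb
  obtain ⟨y, hy, o, ho, h⟩ := (H13.Norm.mem_sup_of_le_normalizer (mY.le.trans mX.norO)).1 hb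
  exact ⟨y, hy, o, ho, h.symm⟩

/-- `O_X = X (O_X ∩ O_Y)` -/
theorem Mb.dec2 [Finite P] (mX : Mb q B Z X ZX) (mY : Mb q B Z Y ZY) (hne : ¬ Y ≤ centralizer (X : Set P)) {o : P}
    (ho : o ∈ B ⊓ centralizer (X : Set P)) : ∃ x ∈ X, ∃ c ∈ B ⊓ centralizer (X : Set P),
      c ∈ centralizer (Y : Set P) ∧ o = x * c := by
  obtain ⟨x, hx, c, hc, h⟩ := mY.dec mX (fun h => hne (le_cen_comm.1 h)) ho.1
  refine ⟨x, hx, c, Subgroup.mem_inf.2 ⟨hc.1, ?_⟩, hc.2, h⟩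
  have e : c = x⁻¹ * o := by rw [h]; group
  rw [e]
  exact mul_mem (inv_mem (mX.ab hx)) ho.2

theorem Mb.sqY [Finite P] (mX : Mb q B Z X ZX) (mY : Mb q B Z Y ZY) (hne : ¬ Y ≤ centralizer (X : Set P)) :
    ∀ c ∈ B ⊓ centralizer (X : Set P), ∀ y ∈ Y, (c * c) * y = y * (c * c) := by
  intro o ho y hy
  obtain ⟨x, hx, c, hc, hcY, rfl⟩ := mX.dec2 mY hne ho
  have h1 : x * c = c * x := mem_cen.1 hc.2 x hx
  have h2 := mX.inv x hx
  have e : x * c * (x * c) = c * c := by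
    calc x * c * (x * c) = x * (c * x) * c := by group
      _ = x * (x * c) * c := by rw [h1]
      _ = (x * x) * (c * c) := by group
      _ = c * c := by rw [h2, one_mul]
  rw [e]
  have h3 := mem_cen.1 hcY y hy
  calc c * c * y = c * (c * y) := by group
    _ = c * (y * c) := by rw [h3]
    _ = (c * y) * c := by group
    _ = (y * c) * c := by rw [h3]
    _ = y * (c * c) := by group

/-- **first step** -/
theorem p1 [Finite P] (mX : Mb q B Z X ZX) (mY : Mb q B Z Y ZY) (hne : ¬ Y ≤ centralizer (X : Set P)) {u : P}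
    (hu : u ∈ B) (huu : u * u = 1) : u ∈ centralizer (X : Set P) ∨ u ∈ centralizer (Y : Set P) := by
  obtain ⟨y, hy, o, ho, rfl⟩ := mX.dec mY hne hu
  obtain ⟨x, hx, c, hc, hcY, rfl⟩ := mX.dec2 mY hne ho
  by_cases hyX : y ∈ centralizer (X : Set P)
  · left
    exact mul_mem hyX ho.2
  right
  have h1 : x * c = c * x := mem_cen.1 hc.2 x hx
  have h2 : y * c = c * y := mem_cen.1 hcY y hy
  have hx2 := mX.inv x hx
  have hy2 := mY.inv y hy
  have ex : x⁻¹ = x := inv_eq_of_mul_eq_one_left hx2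
  have ey : y⁻¹ = y := inv_eq_of_mul_eq_one_left hy2
  have h3 : (y * x * y * x) * (c * c) = 1 := by
    rw [← huu]
    have h7 : c * (y * x) = y * x * c := by rw [← mul_assoc, ← h2, mul_assoc, ← h1, mul_assoc]
    calc (y * x * y * x) * (c * c) = y * x * (y * x * c) * c := by group
      _ = y * x * (c * (y * x)) * c := by rw [h7]
      _ = y * (x * c) * (y * (x * c)) := by group
  have h4 : ⁅x, y⁆ = c * c := by
    have h5 : y * x * y * x = (c * c)⁻¹ := eq_inv_of_mul_eq_one_left h3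
    have h6 : ⁅x, y⁆ = (y * x * y * x)⁻¹ := by
      rw [commutatorElement_def]
      simp only [mul_inv_rev, ex, ey]
      group
    rw [h6, h5, inv_inv]
  have h5 : ⁅x, y⁆ ∈ X := by
    rw [commutatorElement_def]
    have e : x * y * x⁻¹ * y⁻¹ = x * (y * x⁻¹ * y⁻¹) := by group
    rw [e]
    exact mul_mem hx (mX.nor y (mY.le hy) _ (inv_mem hx))
  have h6 : c * c ∈ ZX := mX.sq Y mY.le (mX.sup mY hne) (mX.sqY mY hne) c hc (by rw [← h4]; exact h5)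
  have h7 : x ∈ Z := mX.key y (mY.le hy) hyX x hx (by rw [h4]; exact h6)
  refine mul_mem (mY.ab hy) (mul_mem ?_ hcY)
  rw [mem_cen]
  intro y' hy'
  exact (mX.ZB x h7 y' (mY.le hy')).symm

theorem p1' [Finite P] (mX : Mb q B Z X ZX) (mY : Mb q B Z Y ZY) (mU : Mb q B Z U ZU)
    (hne : ¬ Y ≤ centralizer (X : Set P)) (hUY : ¬ U ≤ centralizer (Y : Set P)) : U ≤ centralizer (X : Set P) := by
  obtain ⟨u0, hu0, hu0Y⟩ := Set.not_subset.1 hUY
  have h0 : u0 ∈ centralizer (X : Set P) := (p1 mX mY hne (mU.le hu0) (mU.inv _ hu0)).resolve_right hu0Y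
  intro u hu
  rcases p1 mX mY hne (mU.le hu) (mU.inv _ hu) with h | h
  · exact h
  · have h1 := (p1 mX mY hne (mU.le (mul_mem hu hu0)) (mU.inv _ (mul_mem hu hu0))).resolve_right (by
      intro h2
      apply hu0Y
      have := mul_mem (inv_mem h) h2
      rwa [inv_mul_cancel_left] at this)
    have := mul_mem h1 (inv_mem h0)
    rwa [mul_inv_cancel_right] at this

/-- **second step** -/
theorem p2 [Finite P] (mX : Mb q B Z X ZX) (mY : Mb q B Z Y ZY) (mU : Mb q B Z U ZU) (mW : Mb q B Z W ZW)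
    (hXY : ¬ Y ≤ centralizer (X : Set P)) (hUY : ¬ Y ≤ centralizer (U : Set P))
    (hXW : ¬ W ≤ centralizer (X : Set P)) : ¬ W ≤ centralizer (U : Set P) := by
  intro hWU
  have hUX : U ≤ centralizer (X : Set P) := p1' mX mY mU hXY (fun h => hUY (le_cen_comm.1 h))
  obtain ⟨y, hy, hyX⟩ := Set.not_subset.1 hXY
  have hZ : ¬ X ≤ Z := by
    intro h
    apply hXY
    intro y hy
    rw [mem_cen]
    intro x hx
    exact mX.ZB x (h hx) y (mY.le hy)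
  obtain ⟨x, hx, hxZ⟩ := Set.not_subset.1 hZ
  apply hxZ
  apply mX.key y (mY.le hy) hyX x hx
  have hxy : ⁅x, y⁆ ∈ X := by
    rw [commutatorElement_def]
    have e : x * y * x⁻¹ * y⁻¹ = x * (y * x⁻¹ * y⁻¹) := by group
    rw [e]
    exact mul_mem hx (mX.nor y (mY.le hy) _ (inv_mem hx))
  refine mX.cm W mW.le (mX.sup mW hXW) ?_ _ ?_ hxy
  · -- the commutator subgroup centralizes `W`
    have h1 : ⁅B ⊓ centralizer (X : Set P), B ⊓ centralizer (X : Set P)⁆ ≤ centralizer (W : Set P) := by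
      rw [commutator_le]
      intro o1 ho1 o2 ho2
      obtain ⟨x1, hx1, c1, hc1, hc1W, e1⟩ := mX.dec2 mW hXW ho1
      obtain ⟨x2, hx2, c2, hc2, hc2W, e2⟩ := mX.dec2 mW hXW ho2
      have k1 : x1 * (x2 * c2) = (x2 * c2) * x1 := by rw [← e2]; exact mem_cen.1 ho2.2 x1 hx1
      have k2 : x2 * c1 = c1 * x2 := mem_cen.1 hc1.2 x2 hx2
      have e3 : ⁅o1, o2⁆ = ⁅c1, c2⁆ := by
        rw [e1, e2, commutatorElement_def, commutatorElement_def]
        have k1' : x1 * (x2 * c2)⁻¹ = (x2 * c2)⁻¹ * x1 := by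
          rw [eq_inv_mul_iff_mul_eq, ← mul_assoc, ← k1, mul_inv_cancel_right]
        have k3 : x1⁻¹ * (x2 * c2)⁻¹ = (x2 * c2)⁻¹ * x1⁻¹ := by
          rw [← mul_inv_rev, ← mul_inv_rev, k1]
        calc x1 * c1 * (x2 * c2) * (x1 * c1)⁻¹ * (x2 * c2)⁻¹
            = x1 * c1 * (x2 * c2) * c1⁻¹ * (x1⁻¹ * (x2 * c2)⁻¹) := by group
          _ = x1 * (c1 * (x2 * c2) * c1⁻¹ * (x2 * c2)⁻¹) * x1⁻¹ := by rw [k3]; group
          _ = x1 * ((c1 * x2) * c2 * c1⁻¹ * (x2 * c2)⁻¹) * x1⁻¹ := by group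
          _ = x1 * ((x2 * c1) * c2 * c1⁻¹ * (x2 * c2)⁻¹) * x1⁻¹ := by rw [k2]
          _ = x1 * x2 * (c1 * c2 * c1⁻¹ * c2⁻¹) * (x1 * x2)⁻¹ := by group
          _ = c1 * c2 * c1⁻¹ * c2⁻¹ := by
            have h5 : c1 * c2 * c1⁻¹ * c2⁻¹ ∈ centralizer (X : Set P) :=
              mul_mem (mul_mem (mul_mem hc1.2 hc2.2) (inv_mem hc1.2)) (inv_mem hc2.2)
            have h6 := mem_cen.1 h5 _ (mul_mem hx1 hx2)
            rw [mul_inv_eq_iff_eq_mul, h6]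
      rw [e3, commutatorElement_def]
      exact mul_mem (mul_mem (mul_mem hc1W hc2W) (inv_mem hc1W)) (inv_mem hc2W)
    intro c hc w hw
    exact (mem_cen.1 (h1 hc) w hw).symm
  · obtain ⟨u, hu, o, ho, e1⟩ := mY.dec mU (fun h => hUY (le_cen_comm.1 h)) (mX.le hx)
    obtain ⟨w, hw, o', ho', e2⟩ := mX.dec mW hXW (inv_mem (mY.le hy))
    obtain ⟨x', hx', c, hc, hcW, e3⟩ := mX.dec2 mW hXW ho'
    have k1 : y * o = o * y := mem_cen.1 ho.2 y hy
    have k2 : u * w = w * u := mem_cen.1 (hWU hw) u hu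
    have k3 : x' * u = u * x' := mem_cen.1 (hUX hu) x' hx'
    have e4 : ⁅x, y⁆ = ⁅u, c⁻¹⁆ := by
      have e5 : y = c⁻¹ * x'⁻¹ * w⁻¹ := by
        have := congrArg (·⁻¹) e2
        simp only [inv_inv] at this
        rw [this, e3]; group
      have e6 : ⁅x, y⁆ = ⁅u, y⁆ := by
        rw [e1, commutatorElement_def, commutatorElement_def]
        calc u * o * y * (u * o)⁻¹ * y⁻¹ = u * (o * y) * o⁻¹ * u⁻¹ * y⁻¹ := by group
          _ = u * (y * o) * o⁻¹ * u⁻¹ * y⁻¹ := by rw [k1]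
          _ = u * y * u⁻¹ * y⁻¹ := by group
      have k4 : w⁻¹ * u⁻¹ = u⁻¹ * w⁻¹ := by rw [← mul_inv_rev, ← mul_inv_rev, k2]
      have k5 : x'⁻¹ * u⁻¹ = u⁻¹ * x'⁻¹ := by rw [← mul_inv_rev, ← mul_inv_rev, k3]
      rw [e6, e5, commutatorElement_def, commutatorElement_def]
      calc u * (c⁻¹ * x'⁻¹ * w⁻¹) * u⁻¹ * (c⁻¹ * x'⁻¹ * w⁻¹)⁻¹
          = u * c⁻¹ * x'⁻¹ * (w⁻¹ * u⁻¹) * (c⁻¹ * x'⁻¹ * w⁻¹)⁻¹ := by group
        _ = u * c⁻¹ * (x'⁻¹ * u⁻¹) * w⁻¹ * (c⁻¹ * x'⁻¹ * w⁻¹)⁻¹ := by rw [k4]; group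
        _ = u * c⁻¹ * u⁻¹ * c⁻¹⁻¹ := by rw [k5]; group
    rw [e4]
    exact commutator_mem_commutator ⟨mU.le hu, hUX hu⟩ (inv_mem hc)

end

end H53.GR
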