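import Cfsg.Agent.Lib.H53.GR1

/-!
# The graph argument, conclusion
-/

set_option autoImplicit false
set_option linter.unusedSectionVars false
set_option linter.unusedVariables false

namespace H53.GR

open Subgroup
open scoped commutatorElement

section

variable {P : Type*} [Group P] {q : ℕ} {B Z X Y ZX : Subgroup P}

theorem mem_map' {φ : MulAut P} {K : Subgroup P} {g : P} : g ∈ K.map φ.toMonoidHom ↔ φ.symm g ∈ K :=
  Subgroup.mem_map_equiv

theorem cen_map {φ : MulAut P} : centralizer ((X.map φ.toMonoidHom : Subgroup P) : Set P) =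
    (centralizer (X : Set P)).map φ.toMonoidHom := by
  ext g
  rw [mem_map', mem_cen, mem_cen]
  constructor
  · intro h x hx
    have h1 := h (φ x) ⟨x, hx, rfl⟩
    have h2 := congrArg φ.symm h1
    rw [map_mul, map_mul, MulEquiv.symm_apply_apply] at h2
    exact h2
  · rintro h _ ⟨x, hx, rfl⟩
    have h1 := congrArg φ (h x hx)
    rw [map_mul, map_mul, MulEquiv.apply_symm_apply] at h1
    exact h1

theorem map_le_map' {φ : MulAut P} {K L : Subgroup P} : K.map φ.toMonoidHom ≤ L.map φ.toMonoidHom ↔ K ≤ L :=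
  Subgroup.map_le_map_iff_of_injective φ.injective

theorem cen_map_iff {φ : MulAut P} : Y.map φ.toMonoidHom ≤ centralizer ((X.map φ.toMonoidHom : Subgroup P) : Set P) ↔
    Y ≤ centralizer (X : Set P) := by
  rw [cen_map, map_le_map']

theorem map_mul' {φ ψ : MulAut P} {K : Subgroup P} : (K.map φ.toMonoidHom).map ψ.toMonoidHom =
    K.map (ψ * φ).toMonoidHom := by
  rw [Subgroup.map_map]; rfl

theorem map_one' {K : Subgroup P} : K.map (1 : MulAut P).toMonoidHom = K := by
  ext x
  rw [mem_map']; rfl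

theorem card_map' [Finite P] {φ : MulAut P} {K : Subgroup P} : Nat.card (K.map φ.toMonoidHom) = Nat.card K :=
  Subgroup.card_map_of_injective φ.injective

/-- transport of the local data -/
theorem Mb.map [Finite P] (m : Mb q B Z X ZX) {φ : MulAut P} (hB : B.map φ.toMonoidHom = B)
    (hZ : Z.map φ.toMonoidHom = Z) : Mb q B Z (X.map φ.toMonoidHom) (ZX.map φ.toMonoidHom) := by
  have hBi : ∀ b ∈ B, φ.symm b ∈ B := fun b hb => by rw [← hB] at hb; exact mem_map'.1 hb
  have hZi : ∀ b ∈ Z, φ.symm b ∈ Z := fun b hb => by rw [← hZ] at hb; exact mem_map'.1 hb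
  have hZj : ∀ b, φ.symm b ∈ Z → b ∈ Z := fun b hb => by rw [← hZ]; exact mem_map'.2 hb
  have hO : B ⊓ centralizer ((X.map φ.toMonoidHom : Subgroup P) : Set P) =
      (B ⊓ centralizer (X : Set P)).map φ.toMonoidHom := by
    rw [cen_map, Subgroup.map_inf _ _ _ φ.injective, hB]
  have hcb : ∀ b, b ∉ centralizer ((X.map φ.toMonoidHom : Subgroup P) : Set P) → φ.symm b ∉ centralizer (X : Set P) := by
    intro b hb h
    apply hb
    rw [cen_map]; exact mem_map'.2 h
  have hsup : ∀ Y ≤ B, Y ⊔ (B ⊓ centralizer ((X.map φ.toMonoidHom : Subgroup P) : Set P)) = B →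
      (Y.comap φ.toMonoidHom) ≤ B ∧ (Y.comap φ.toMonoidHom) ⊔ (B ⊓ centralizer (X : Set P)) = B := by
    intro Y hY h
    have h0 : (Y.comap φ.toMonoidHom).map φ.toMonoidHom = Y := Subgroup.map_comap_eq_self_of_surjective φ.surjective Y
    constructor
    · rw [← map_le_map' (φ := φ), h0, hB]; exact hY
    · apply Subgroup.map_injective (f := φ.toMonoidHom) φ.injective
      show ((Y.comap φ.toMonoidHom) ⊔ (B ⊓ centralizer (X : Set P))).map φ.toMonoidHom = B.map φ.toMonoidHom
      rw [Subgroup.map_sup, h0, ← hO, h, hB]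
  refine ⟨?_, ?_, ?_, ?_, m.ZB, ?_, ?_, ?_, ?_, ?_, ?_⟩
  · rw [← hB, map_le_map']; exact m.le
  · intro b hb x hx
    rw [mem_map'] at hx ⊢
    rw [map_mul, map_mul, map_inv]
    exact m.nor _ (hBi b hb) _ hx
  · intro x hx
    have h1 := m.inv _ (mem_map'.1 hx)
    rw [← map_mul] at h1
    exact φ.symm.injective (h1.trans (map_one _).symm)
  · rw [← hZ, map_le_map']; exact m.ZX
  · rw [card_map']; exact m.cX
  · rw [hO, card_map']; exact m.cO
  · intro b hb hbX x hx h
    apply hZj
    refine m.cen _ (hBi b hb) (hcb b hbX) _ (mem_map'.1 hx) ?_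
    rw [← map_mul, ← map_mul, h]
  · intro b hb hbX x hx h
    apply hZj
    refine m.key _ (hBi b hb) (hcb b hbX) _ (mem_map'.1 hx) ?_
    rw [← map_commutatorElement]
    exact mem_map'.1 h
  · intro Y hY hsupY hc c hcO hcX
    obtain ⟨h1, h2⟩ := hsup Y hY hsupY
    rw [hO, mem_map'] at hcO
    rw [mem_map', map_mul] at hcX ⊢
    refine m.sq _ h1 h2 ?_ _ hcO hcX
    intro c' hc' y hy
    have h3 := hc (φ c') (by rw [hO]; exact ⟨c', hc', rfl⟩) (φ y) hy
    rw [← map_mul, ← map_mul, ← map_mul] at h3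
    exact φ.injective h3
  · intro Y hY hsupY hc c hcO hcX
    obtain ⟨h1, h2⟩ := hsup Y hY hsupY
    rw [hO, ← Subgroup.map_commutator, mem_map'] at hcO
    rw [mem_map'] at hcX ⊢
    refine m.cm _ h1 h2 ?_ _ hcO hcX
    intro c' hc' y hy
    have h3 := hc (φ c') (by rw [hO, ← Subgroup.map_commutator]; exact ⟨c', hc', rfl⟩) (φ y) hy
    rw [← map_mul, ← map_mul] at h3
    exact φ.injective h3

/-- **the graph argument** -/
theorem all_comm [Finite P] (m : Mb q B Z X ZX) {γ : MulAut P} (hB : B.map γ.toMonoidHom = B)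
    (hZ : Z.map γ.toMonoidHom = Z) {k : ℕ} {s : P} (hk : γ ^ (2 * k + 1) = MulAut.conj s)
    (hs : X.map (MulAut.conj s).toMonoidHom ≤ centralizer (X : Set P)) :
    X.map γ.toMonoidHom ≤ centralizer (X : Set P) := by
  by_contra hne
  have hBn : ∀ n : ℕ, B.map (γ ^ n).toMonoidHom = B := by
    intro n
    induction n with
    | zero => rw [pow_zero]; exact map_one'
    | succ n ih => rw [pow_succ, ← map_mul', hB, ih]
  have hZn : ∀ n : ℕ, Z.map (γ ^ n).toMonoidHom = Z := by
    intro n
    induction n with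
    | zero => rw [pow_zero]; exact map_one'
    | succ n ih => rw [pow_succ, ← map_mul', hZ, ih]
  have mm : ∀ n : ℕ, Mb q B Z (X.map (γ ^ n).toMonoidHom) (ZX.map (γ ^ n).toMonoidHom) :=
    fun n => m.map (hBn n) (hZn n)
  have h01 : ¬ X.map (γ ^ 1).toMonoidHom ≤ centralizer ((X.map (γ ^ 0).toMonoidHom : Subgroup P) : Set P) := by
    rw [pow_one, pow_zero, map_one']; exact hne
  have h12 : ¬ X.map (γ ^ 1).toMonoidHom ≤ centralizer ((X.map (γ ^ 2).toMonoidHom : Subgroup P) : Set P) := by
    intro h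
    apply h01
    have h1 := le_cen_comm.1 h
    rw [← cen_map_iff (φ := γ), map_mul', map_mul', ← pow_succ', ← pow_succ']
    exact h1
  have key : ∀ j : ℕ, ¬ X.map (γ ^ (2 * j + 1)).toMonoidHom ≤
      centralizer ((X.map (γ ^ 0).toMonoidHom : Subgroup P) : Set P) := by
    intro j
    induction j with
    | zero => exact h01
    | succ j ih =>
      refine p2 (mm 2) (mm 1) (mm 0) (mm (2 * (j + 1) + 1)) h12 h01 ?_
      intro h
      apply ih
      rw [← cen_map_iff (φ := γ ^ 2), map_mul', map_mul', ← pow_add, ← pow_add]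
      have e : 2 + (2 * j + 1) = 2 * (j + 1) + 1 := by ring
      rw [e]
      exact h
  have h1 := key k
  rw [hk, pow_zero, map_one'] at h1
  exact h1 hs

end

end H53.GR
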