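import Cfsg.Agent.Lib.H24.SzTwo
import Cfsg.Agent.Lib.H8.SuzTorus3
import Cfsg.Agent.Lib.H53.SzReal
import Mathlib

set_option autoImplicit false

/-! Suzuki groups: transitive actions of fixity 2. -/

namespace H53.SzFix

open Cfsg H8.SuzOvoid H8.SuzField H8.SuzMat H8.SuzStab H8.SuzGroup H8.SuzSylow H8.SuzCent H8.TICount H8.SuzTorus
open Subgroup MulAction

section Gen
variable {G Ω : Type*} [Group G] [MulAction G Ω]

/-- stabilizer index in the normalizer of a nontrivial subgroup -/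
theorem relIndex_le [Finite Ω] (hfix : ∀ g : G, g ≠ 1 → Nat.card (MulAction.fixedBy Ω g) ≤ 2) {α : Ω} {x : G} (hx1 : x ≠ 1)
    {X : Subgroup G} (hxX : x ∈ X) (hX : X ≤ stabilizer G α) {N : Subgroup G}
    (hN : ∀ n ∈ N, ∀ y ∈ X, n⁻¹ * y * n ∈ X) : (stabilizer G α).relIndex N ≤ 2 ∧ (stabilizer G α).relIndex N ≠ 0 := by
  have h1 : (stabilizer G α).relIndex N = Nat.card (MulAction.orbit N α) := by
    rw [Nat.card_coe_set_eq, ← index_stabilizer]
    rfl
  rw [h1]
  have hsub : MulAction.orbit N α ⊆ MulAction.fixedBy Ω x := by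
    rintro _ ⟨n, rfl⟩
    rw [mem_fixedBy]
    show x • ((n : G) • α) = (n : G) • α
    have h2 := hX (hN n n.2 x hxX)
    rw [mem_stabilizer_iff] at h2
    calc x • ((n : G) • α) = (n : G) • (((n : G)⁻¹ * x * n) • α) := by rw [smul_smul, smul_smul]; congr 1; group
      _ = (n : G) • α := by rw [h2]
  constructor
  · refine le_trans ?_ (hfix x hx1)
    rw [Nat.card_coe_set_eq, Nat.card_coe_set_eq]
    exact Set.ncard_le_ncard hsub (Set.toFinite _)
  · have : Nonempty (MulAction.orbit N α) := ⟨⟨α, mem_orbit_self α⟩⟩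
    exact Nat.card_pos.ne'

/-- elements of a subgroup of relative index at most 2 -/
theorem sq_mem {H N : Subgroup G} (h : H.relIndex N ≤ 2) (h0 : H.relIndex N ≠ 0) {n : G} (hn : n ∈ N) : n * n ∈ H := by
  have hc : H.relIndex N = 1 ∨ H.relIndex N = 2 := by omega
  rcases hc with h1 | h1
  · rw [relIndex_eq_one] at h1
    exact mul_mem (h1 hn) (h1 hn)
  · have h2 : (H.subgroupOf N).index = 2 := h1
    have h3 := Subgroup.mul_self_mem_of_index_two h2 ⟨n, hn⟩
    exact h3

/-- the quotient by a subgroup of index at most 2 is abelian -/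
theorem comm_mem {H N : Subgroup G} (h : H.relIndex N ≤ 2) (h0 : H.relIndex N ≠ 0) {a b : G} (ha : a ∈ N) (hb : b ∈ N) :
    a * b * a⁻¹ * b⁻¹ ∈ H := by
  have hc : H.relIndex N = 1 ∨ H.relIndex N = 2 := by omega
  rcases hc with h1 | h1
  · rw [relIndex_eq_one] at h1
    exact mul_mem (mul_mem (mul_mem (h1 ha) (h1 hb)) (inv_mem (h1 ha))) (inv_mem (h1 hb))
  · have h2 : (H.subgroupOf N).index = 2 := h1
    have key : ∀ u v : N, u * v ∈ H.subgroupOf N ↔ (u ∈ H.subgroupOf N ↔ v ∈ H.subgroupOf N) :=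
      fun u v => Subgroup.mul_mem_iff_of_index_two h2
    have h3 : (⟨a, ha⟩ : N) * ⟨b, hb⟩ * (⟨a, ha⟩ : N)⁻¹ * (⟨b, hb⟩ : N)⁻¹ ∈ H.subgroupOf N := by
      rw [key, key, key, inv_mem_iff, inv_mem_iff]
      tauto
    exact h3

end Gen

variable {F : Type*} [Field F] [Fintype F] {m : ℕ}
variable {Ω : Type*} [Finite Ω] [MulAction (Sz F m) Ω]

theorem mem_stab_iff (g : Sz F m) : g ∈ stabilizer (Sz F m) (suzukiPointInfinity F) ↔
    (g : SL F) • suzukiPointInfinity F = suzukiPointInfinity F := Iff.rfl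

theorem TT_le (hF : Fintype.card F = 2 ^ (2 * m + 1)) : TT hF ≤ stabilizer (Sz F m) (suzukiPointInfinity F) := by
  rintro _ ⟨a, b, rfl⟩
  exact T_smul_inf a b

theorem dG_mem (hF : Fintype.card F = 2 ^ (2 * m + 1)) (k : Fˣ) :
    dG (m := m) hF k ∈ stabilizer (Sz F m) (suzukiPointInfinity F) := by
  show D m k • suzukiPointInfinity F = _
  exact D_smul_inf k

/-- conjugation of the centre of TT under the Borel subgroup -/
theorem conj_Z (hm : 1 ≤ m) (hF : Fintype.card F = 2 ^ (2 * m + 1)) {g : Sz F m}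
    (hg : g ∈ stabilizer (Sz F m) (suzukiPointInfinity F)) (b : F) : ∃ c : F, g⁻¹ * tG hF 0 b * g = tG hF 0 c := by
  have h1 := mem_normalizer_TT hm hF ((stabilizer (Sz F m) (suzukiPointInfinity F)).inv_mem hg)
  have h2 := (mem_normalizer_iff.1 h1 (tG hF 0 b)).1 ⟨0, b, rfl⟩
  rw [inv_inv] at h2
  apply H53.SzReal.tG_of_sq hF h2
  have h3 : tG hF 0 b * tG hF 0 b = (1 : Sz F m) := by
    rw [← pow_two, tG_sq, mul_zero, tG_one]
  calc g⁻¹ * tG hF 0 b * g * (g⁻¹ * tG hF 0 b * g) = g⁻¹ * (tG hF 0 b * tG hF 0 b) * g := by group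
    _ = 1 := by rw [h3]; group

theorem borel_le (hm : 1 ≤ m) (hF : Fintype.card F = 2 ^ (2 * m + 1))
    (hfix : ∀ g : Sz F m, g ≠ 1 → Nat.card (MulAction.fixedBy Ω g) ≤ 2) {α : Ω} {b : F} (hb : b ≠ 0)
    (hα : tG hF 0 b ∈ stabilizer (Sz F m) α) :
    stabilizer (Sz F m) (suzukiPointInfinity F) ≤ stabilizer (Sz F m) α := by
  set H := stabilizer (Sz F m) α
  have htne : ∀ b : F, b ≠ 0 → tG hF 0 b ≠ (1 : Sz F m) := by
    intro b hb h
    rw [← tG_one hF] at h
    exact hb (tG_inj hF h).2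
  -- step 1
  have s1 := relIndex_le (X := zpowers (tG hF 0 b)) (N := TT (m := m) hF) (α := α) hfix (htne b hb) (mem_zpowers _)
    (by rw [zpowers_le]; exact hα) (by
      rintro _ ⟨c, d, rfl⟩ y hy
      obtain ⟨i, rfl⟩ := mem_zpowers_iff.1 hy
      have hc : Commute (tG hF c d : Sz F m) (tG hF 0 b) := by
        show _ * _ = _ * _
        rw [tG_mul, tG_mul]
        congr 1
        · ring
        · simp [th_zero]; ring
      have hc2 := hc.zpow_right i
      have : (tG hF c d : Sz F m)⁻¹ * tG hF 0 b ^ i * tG hF c d = tG hF 0 b ^ i := by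
        rw [mul_assoc, ← hc2.eq]; group
      rw [this]
      exact hy)
  have s2 : ∀ u : F, tG hF 0 u ∈ H := by
    intro u
    by_cases hu : u = 0
    · rw [hu, tG_one]; exact one_mem _
    obtain ⟨a, _, ha⟩ := exists_norm (m := m) hF hu
    have h1 := sq_mem s1.1 s1.2 (n := tG hF a 0) ⟨a, 0, rfl⟩
    rw [← pow_two, tG_sq] at h1
    rw [← ha, mul_comm a]
    exact h1
  -- the group ZZ
  let ZZ : Subgroup (Sz F m) :=
    { carrier := {g | ∃ u, g = tG hF 0 u}
      mul_mem' := by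
        rintro _ _ ⟨u, rfl⟩ ⟨v, rfl⟩
        refine ⟨u + v, ?_⟩
        rw [tG_mul]
        congr 1
        · ring
        · simp [th_zero]
      one_mem' := ⟨0, (tG_one hF).symm⟩
      inv_mem' := by
        rintro _ ⟨u, rfl⟩
        refine ⟨u, ?_⟩
        rw [inv_eq_iff_mul_eq_one, ← pow_two, tG_sq, mul_zero, tG_one] }
  have hZH : ZZ ≤ H := by
    rintro _ ⟨u, rfl⟩
    exact s2 u
  have s3 := relIndex_le (X := ZZ) (N := stabilizer (Sz F m) (suzukiPointInfinity F)) (α := α) hfix (htne b hb) ⟨b, rfl⟩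
    hZH (by
      rintro n hn _ ⟨u, rfl⟩
      exact conj_Z hm hF hn u)
  -- HH
  have s4 : ∀ k : Fˣ, dG (m := m) hF k ∈ H := by
    intro k
    have hodd : Nat.Coprime 2 (Nat.card Fˣ) := by
      classical
      rw [Nat.card_eq_fintype_card, Fintype.card_units, hF, Nat.coprime_two_left]
      have : 2 ^ (2 * m + 1) = 2 * 2 ^ (2 * m) := by rw [pow_succ]; ring
      have h3 : 0 < 2 ^ (2 * m) := by positivity
      rw [this]
      exact ⟨2 ^ (2 * m) - 1, by omega⟩
    obtain ⟨l, hl⟩ := (powCoprime hodd.symm).surjective k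
    have hl' : l * l = k := by rw [← hl, powCoprime_apply, pow_two]
    rw [← hl', _root_.map_mul]
    exact sq_mem s3.1 s3.2 (dG_mem hF l)
  -- TT
  have s5 : ∀ a c : F, tG hF a c ∈ H := by
    intro a c
    obtain ⟨k, hk⟩ := exists_k hm hF
    have hk1 : (k : F) - 1 ≠ 0 := fun h => hk (Units.ext (sub_eq_zero.1 h))
    have h1 := comm_mem s3.1 s3.2 (dG_mem hF k) (TT_le hF ⟨a / ((k : F) - 1), 0, rfl⟩)
    rw [H8.SuzSimple.dG_conj] at h1
    have h2 : ∃ d, (tG hF (a / ((k : F) - 1)) 0 : Sz F m)⁻¹ = tG hF (- (a / ((k : F) - 1))) d := by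
      obtain ⟨e, d, hd⟩ : (tG hF (a / ((k : F) - 1)) 0 : Sz F m)⁻¹ ∈ TT (m := m) hF := inv_mem ⟨_, _, rfl⟩
      refine ⟨d, ?_⟩
      rw [hd]
      have h3 : tG hF (a / ((k : F) - 1)) 0 * tG hF e d = (1 : Sz F m) := by rw [← hd, mul_inv_cancel]
      rw [tG_mul, ← tG_one hF] at h3
      have h4 := (tG_inj hF h3).1
      congr 1
      linear_combination h4
    obtain ⟨d, hd⟩ := h2
    rw [hd, tG_mul] at h1
    have h3 : (k : F) * (a / ((k : F) - 1)) + -(a / ((k : F) - 1)) = a := by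
      field_simp
      ring
    rw [h3] at h1
    have h4 := mul_mem h1 (s2 (c - (k * th m (k : F) * 0 + d + th m (k * (a / ((k : F) - 1))) * -(a / ((k : F) - 1)))))
    rw [tG_mul] at h4
    convert h4 using 2
    · ring
    · simp [th_zero]
  intro g hg
  obtain ⟨a, c, k, hk⟩ := eq_TD_of_fix_inf hF hm g.2 hg
  have hh : g = tG hF a c * dG hF k := Subtype.ext hk
  rw [hh]
  exact mul_mem (s5 a c) (s4 k)

theorem stab_smul' {G Ω : Type*} [Group G] [MulAction G Ω] (y g : G) (α : Ω) :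
    y * g * y⁻¹ ∈ stabilizer G (y • α) ↔ g ∈ stabilizer G α := by
  rw [mem_stabilizer_iff, mem_stabilizer_iff, smul_smul, inv_mul_cancel_right, mul_smul]
  exact smul_left_cancel_iff y

/-- an involution in a stabilizer: the action is on the ovoid -/
theorem even_case (hm : 1 ≤ m) (hF : Fintype.card F = 2 ^ (2 * m + 1)) [IsPretransitive (Sz F m) Ω]
    (hfix : ∀ g : Sz F m, g ≠ 1 → Nat.card (MulAction.fixedBy Ω g) ≤ 2)
    (hex : ∃ g : Sz F m, g ≠ 1 ∧ Nat.card (MulAction.fixedBy Ω g) = 2) {α : Ω}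
    (h2 : 2 ∣ Nat.card (stabilizer (Sz F m) α)) :
    Nat.card Ω = (2 ^ (2 * m + 1)) ^ 2 + 1 ∧ IsMultiplyPretransitive (Sz F m) Ω 2 := by
  have hf2 : Fact (Nat.Prime 2) := ⟨Nat.prime_two⟩
  obtain ⟨x, hx⟩ := exists_prime_orderOf_dvd_card' (G := stabilizer (Sz F m) α) 2 h2
  rw [← Subgroup.orderOf_coe] at hx
  obtain ⟨y, b, hb, hy⟩ := H8.SuzSimple.exists_conj_tG hm hF hx
  have h3 : tG hF 0 b ∈ stabilizer (Sz F m) (y • α) := by
    rw [← hy, stab_smul']
    exact x.2
  have h4 := borel_le hm hF hfix hb h3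
  have h2t := two_transitive (m := m) hF
  have hpt : IsPretransitive (Sz F m) (suzukiOvoid F m) := isPretransitive_of_is_two_pretransitive
  have hB : stabilizer (Sz F m) (suzukiPointInfinity F) = stabilizer (Sz F m) (H24.SzTwo.inf F m) := by
    ext g
    rw [mem_stabilizer_iff, mem_stabilizer_iff]
    constructor
    · intro h; exact Subtype.ext h
    · intro h; exact congrArg Subtype.val h
  have hco : IsCoatom (stabilizer (Sz F m) (H24.SzTwo.inf F m)) := by
    have hpre : IsPreprimitive (Sz F m) (suzukiOvoid F m) := isPreprimitive_of_is_two_pretransitive h2t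
    have hnt : Nontrivial (suzukiOvoid F m) := by
      obtain ⟨β, γ, _, _, h⟩ := H24.SzTwo.ne_three (F := F) (m := m)
      exact ⟨β, γ, h⟩
    exact IsPreprimitive.isCoatom_stabilizer_of_isPreprimitive _ _
  have h5 : stabilizer (Sz F m) (y • α) = stabilizer (Sz F m) (H24.SzTwo.inf F m) := by
    rcases eq_or_lt_of_le (hB ▸ h4) with h | h
    · exact h.symm
    · exfalso
      have htop := hco.2 _ h
      obtain ⟨g, _, hg⟩ := hex
      have hsub : Subsingleton Ω := by
        constructor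
        have key : ∀ β : Ω, β = y • α := by
          intro β
          obtain ⟨g, rfl⟩ := exists_smul_eq (Sz F m) (y • α) β
          have : g ∈ stabilizer (Sz F m) (y • α) := by rw [htop]; exact mem_top _
          exact this
        intro β γ
        rw [key β, key γ]
      have h6 : Nat.card (fixedBy Ω g) ≤ 1 := by
        rw [Finite.card_le_one_iff_subsingleton]
        infer_instance
      omega
  constructor
  · rw [← index_stabilizer_of_transitive (Sz F m) (y • α), h5, H24.SzTwo.index_stab hF]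
  · obtain ⟨h6, _⟩ := H24.SzTwo.quotient_facts h2t (TT hF) (H24.SzTwo.TT_reg hF) (stabilizer (Sz F m) (y • α)) h5
    rw [is_two_pretransitive_iff] at h6 ⊢
    have hsurj : Function.Surjective (ofQuotientStabilizer (Sz F m) (y • α)) := by
      intro β
      obtain ⟨g, rfl⟩ := exists_smul_eq (Sz F m) (y • α) β
      exact ⟨QuotientGroup.mk g, rfl⟩
    intro a b c d hab hcd
    obtain ⟨a, rfl⟩ := hsurj a
    obtain ⟨b, rfl⟩ := hsurj b
    obtain ⟨c, rfl⟩ := hsurj c
    obtain ⟨d, rfl⟩ := hsurj d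
    obtain ⟨g, h7, h8⟩ := h6 (fun h => hab (congrArg _ h)) (fun h => hcd (congrArg _ h))
    exact ⟨g, by rw [← h7, ofQuotientStabilizer_smul], by rw [← h8, ofQuotientStabilizer_smul]⟩

/-- in a cyclic subgroup, a conjugate of an element of a subgroup of prime order stays in it -/
theorem conj_cyc {G : Type*} [Group G] [Finite G] {W : Subgroup G} [IsCyclic W] {r : ℕ} (hr : r.Prime) {z n t : G}
    (hzo : orderOf z = r) (hy : z ∈ W) (hnt : n⁻¹ * t * n ∈ W) (ht : t ∈ zpowers z) : n⁻¹ * t * n ∈ zpowers z := by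
  have h4 : (n⁻¹ * t * n) ^ r = 1 := by
    have h5 : n⁻¹ * t * n = n⁻¹ * t * n⁻¹⁻¹ := by rw [inv_inv]
    rw [h5, conj_pow]
    have h6 : t ^ r = 1 := by
      obtain ⟨i, rfl⟩ := mem_zpowers_iff.1 ht
      rw [← zpow_natCast, ← zpow_mul, mul_comm, zpow_mul, zpow_natCast, ← hzo, pow_orderOf_eq_one, one_zpow]
    rw [h6]; group
  have h7 : (⟨n⁻¹ * t * n, hnt⟩ : W) ∈ zpowers (⟨z, hy⟩ : W) := by
    have h8 : orderOf (⟨z, hy⟩ : W) = r := by rw [← Subgroup.orderOf_coe]; exact hzo
    by_contra hnot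
    classical
    have : Fintype W := Fintype.ofFinite W
    have h9 := IsCyclic.card_pow_eq_one_le (α := W) (n := r) hr.pos
    have h10 : (Finset.univ.filter (fun a : W => a ∈ zpowers (⟨z, hy⟩ : W))) ⊂
        Finset.univ.filter (fun a : W => a ^ r = 1) := by
      rw [Finset.ssubset_iff_of_subset]
      · refine ⟨⟨n⁻¹ * t * n, hnt⟩, ?_, ?_⟩
        · simp only [Finset.mem_filter, Finset.mem_univ, true_and]
          exact Subtype.ext h4
        · simp only [Finset.mem_filter, Finset.mem_univ, true_and]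
          exact hnot
      · intro a ha
        simp only [Finset.mem_filter, Finset.mem_univ, true_and] at ha ⊢
        obtain ⟨i, rfl⟩ := mem_zpowers_iff.1 ha
        rw [← zpow_natCast, ← zpow_mul, mul_comm, zpow_mul, zpow_natCast, ← h8, pow_orderOf_eq_one, one_zpow]
    have h11 := Finset.card_lt_card h10
    have h12 : (Finset.univ.filter (fun a : W => a ∈ zpowers (⟨z, hy⟩ : W))).card = r := by
      rw [← h8, ← Nat.card_zpowers, ← Fintype.card_subtype, ← Nat.card_eq_fintype_card]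
    have h13 : (Finset.univ.filter (fun a : W => a ^ r = 1)).card ≤ r := by
      convert h9
    omega
  obtain ⟨i, hi⟩ := mem_zpowers_iff.1 h7
  exact mem_zpowers_iff.2 ⟨i, congrArg Subtype.val hi⟩

/-- no element of order dividing q²+1 in an odd stabilizer -/
theorem no_torus (hm : 1 ≤ m) (hF : Fintype.card F = 2 ^ (2 * m + 1))
    (hfix : ∀ g : Sz F m, g ≠ 1 → Nat.card (MulAction.fixedBy Ω g) ≤ 2) {α : Ω}
    (h2 : ¬ 2 ∣ Nat.card (stabilizer (Sz F m) α)) {r : ℕ} (hr : r.Prime)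
    (hrH : r ∣ Nat.card (stabilizer (Sz F m) α)) : ¬ r ∣ (2 ^ (2 * m + 1)) ^ 2 + 1 := by
  intro hrq
  have hfr : Fact r.Prime := ⟨hr⟩
  obtain ⟨x, hx⟩ := exists_prime_orderOf_dvd_card' (G := stabilizer (Sz F m) α) r hrH
  rw [← Subgroup.orderOf_coe] at hx
  have key : ∀ W : Subgroup (Sz F m), Tor W → Nat.card (normalizer (W : Set (Sz F m))) = 4 * Nat.card W →
      r ∣ Nat.card W → False := by
    intro W hW hcW hrW
    obtain ⟨_, y, hy⟩ := hW.mem_cl hm hF hr hrW (g := (x : Sz F m)) (by rw [hx])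
    have h3 : y * (x : Sz F m) * y⁻¹ ∈ stabilizer (Sz F m) (y • α) := by rw [stab_smul']; exact x.2
    set z := y * (x : Sz F m) * y⁻¹ with hz
    have hzo : orderOf z = r := by rw [hz, orderOf_conj', hx]
    have hz1 : z ≠ 1 := by
      intro h
      rw [h, orderOf_one] at hzo
      exact hr.one_lt.ne hzo
    have hcyc := hW.isCyclic hF
    have s := relIndex_le (X := zpowers z) (N := normalizer (W : Set (Sz F m))) (α := y • α) hfix hz1 (mem_zpowers _)
      (by rw [zpowers_le]; exact h3) (by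
        intro n hn t ht
        have htW : t ∈ W := (zpowers_le.2 hy) ht
        have hnt : n⁻¹ * t * n ∈ W := by
          have := (mem_normalizer_iff.1 (inv_mem hn) t).1 htW
          rwa [inv_inv] at this
        exact conj_cyc hr hzo hy hnt ht)
    -- count
    have h4 : Nat.card (normalizer (W : Set (Sz F m))) =
        Nat.card ↥(stabilizer (Sz F m) (y • α) ⊓ normalizer (W : Set (Sz F m))) *
          (stabilizer (Sz F m) (y • α)).relIndex (normalizer (W : Set (Sz F m))) := by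
      rw [← inf_relIndex_right, card_mul_rel inf_le_right]
    have h5 : Nat.card ↥(stabilizer (Sz F m) (y • α) ⊓ normalizer (W : Set (Sz F m))) ∣
        Nat.card (stabilizer (Sz F m) (y • α)) := card_dvd_of_le inf_le_left
    have h6 : Nat.card (stabilizer (Sz F m) (y • α)) = Nat.card (stabilizer (Sz F m) α) :=
      (Nat.card_congr (stabilizerEquivStabilizer (g := y) (a := α) (b := y • α) rfl).toEquiv).symm
    rw [h6] at h5
    have h7 : ¬ 2 ∣ Nat.card ↥(stabilizer (Sz F m) (y • α) ⊓ normalizer (W : Set (Sz F m))) :=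
      fun h => h2 (h.trans h5)
    have hc : (stabilizer (Sz F m) (y • α)).relIndex (normalizer (W : Set (Sz F m))) = 1 ∨
      (stabilizer (Sz F m) (y • α)).relIndex (normalizer (W : Set (Sz F m))) = 2 := by omega
    rcases hc with h8 | h8 <;> rw [h8, hcW] at h4 <;> omega
  obtain ⟨U, V, hU, hV, hcU, hcV, hprod, _⟩ := exists_two_tori hm hF
  rw [← hprod] at hrq
  rcases (Nat.Prime.dvd_mul hr).1 hrq with h1 | h1
  · exact key U hU hcU h1
  · exact key V hV hcV h1

theorem odd_case (hm : 1 ≤ m) (hF : Fintype.card F = 2 ^ (2 * m + 1)) [IsPretransitive (Sz F m) Ω]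
    (hfix : ∀ g : Sz F m, g ≠ 1 → Nat.card (MulAction.fixedBy Ω g) ≤ 2)
    (hex : ∃ g : Sz F m, g ≠ 1 ∧ Nat.card (MulAction.fixedBy Ω g) = 2) {α : Ω}
    (h2 : ¬ 2 ∣ Nat.card (stabilizer (Sz F m) α)) :
    Nat.card (stabilizer (Sz F m) α) = 2 ^ (2 * m + 1) - 1 := by
  have hcards : ∀ β : Ω, Nat.card (stabilizer (Sz F m) β) = Nat.card (stabilizer (Sz F m) α) := by
    intro β
    obtain ⟨y, rfl⟩ := exists_smul_eq (Sz F m) α β
    exact (Nat.card_congr (stabilizerEquivStabilizer (g := y) (a := α) (b := y • α) rfl).toEquiv).symm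
  -- H nontrivial
  have hne : Nat.card (stabilizer (Sz F m) α) ≠ 1 := by
    obtain ⟨g, hg1, hg⟩ := hex
    have hne : Nonempty (fixedBy Ω g) := by
      by_contra h
      rw [not_nonempty_iff] at h
      rw [Nat.card_of_isEmpty] at hg
      omega
    obtain ⟨β, hβ⟩ := hne
    rw [← hcards β, Ne, Subgroup.card_eq_one]
    intro h
    exact hg1 (by rw [← Subgroup.mem_bot, ← h]; exact hβ)
  -- coprime part
  have hdvd : Nat.card (stabilizer (Sz F m) α) ∣ 2 ^ (2 * m + 1) - 1 := by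
    have h3 : Nat.card (stabilizer (Sz F m) α) ∣ Nat.card (Sz F m) := Subgroup.card_subgroup_dvd_card _
    rw [card_Sz hm hF] at h3
    refine Nat.Coprime.dvd_of_dvd_mul_left ?_ h3
    rw [Nat.coprime_mul_iff_right]
    constructor
    · have : Nat.Coprime (Nat.card (stabilizer (Sz F m) α)) 2 := by
        rw [Nat.coprime_comm, Nat.Prime.coprime_iff_not_dvd Nat.prime_two]
        exact h2
      exact (this.pow_right _).pow_right _
    · exact Nat.coprime_of_dvd (fun r hr hrH => no_torus hm hF hfix h2 hr hrH)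
  -- a prime divisor
  obtain ⟨r, hr, hrH⟩ := Nat.exists_prime_and_dvd hne
  have hfr : Fact r.Prime := ⟨hr⟩
  obtain ⟨x, hx⟩ := exists_prime_orderOf_dvd_card' (G := stabilizer (Sz F m) α) r hrH
  rw [← Subgroup.orderOf_coe] at hx
  obtain ⟨y, hy⟩ := conj_mem_HH hm hF hr (hrH.trans hdvd) hx
  have hyx := hy _ rfl
  set z := y * (x : Sz F m) * y⁻¹ with hz
  have hzo : orderOf z = r := by rw [hz, orderOf_conj', hx]
  have hz1 : z ≠ 1 := by
    intro h
    rw [h, orderOf_one] at hzo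
    exact hr.one_lt.ne hzo
  have h3 : z ∈ stabilizer (Sz F m) (y • α) := by rw [hz, stab_smul']; exact x.2
  have hconj : ∀ n ∈ normalizer ((HH (m := m) hF : Subgroup (Sz F m)) : Set (Sz F m)), ∀ t ∈ zpowers z,
      n⁻¹ * t * n ∈ zpowers z := by
    intro n hn t ht
    have hcyc := isCyclic_HH (m := m) hF
    have hnt : n⁻¹ * t * n ∈ HH (m := m) hF := by
      have := (mem_normalizer_iff.1 (inv_mem hn) t).1 ((zpowers_le.2 hyx) ht)
      rwa [inv_inv] at this
    exact conj_cyc hr hzo hyx hnt ht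
  have s := relIndex_le (X := zpowers z) (N := normalizer ((HH (m := m) hF : Subgroup (Sz F m)) : Set (Sz F m)))
    (α := y • α) hfix hz1 (mem_zpowers _) (by rw [zpowers_le]; exact h3) hconj
  set N := normalizer ((HH (m := m) hF : Subgroup (Sz F m)) : Set (Sz F m)) with hN
  have h4 : Nat.card N = Nat.card ↥(stabilizer (Sz F m) (y • α) ⊓ N) * (stabilizer (Sz F m) (y • α)).relIndex N := by
    rw [← inf_relIndex_right, card_mul_rel inf_le_right]
  have h5 : Nat.card ↥(stabilizer (Sz F m) (y • α) ⊓ N) ∣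
      Nat.card (stabilizer (Sz F m) (y • α)) := card_dvd_of_le inf_le_left
  rw [hcards] at h5
  have h6 : Nat.card N = (2 ^ (2 * m + 1) - 1) * 2 := by
    rw [← card_mul_rel (le_normalizer (H := HH (m := m) hF)), relIndex_HH hm hF, card_HH]
  have hq : 2 ≤ 2 ^ (2 * m + 1) := by
    calc 2 = 2 ^ 1 := rfl
      _ ≤ 2 ^ (2 * m + 1) := Nat.pow_le_pow_right (by norm_num) (by omega)
  have h7 := Nat.le_of_dvd Nat.card_pos h5
  have h8 := Nat.le_of_dvd (by omega) hdvd
  have hc : (stabilizer (Sz F m) (y • α)).relIndex N = 1 ∨ (stabilizer (Sz F m) (y • α)).relIndex N = 2 := by omega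
  rcases hc with h9 | h9 <;> rw [h9, h6] at h4 <;> omega

end H53.SzFix
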