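import Mathlib
import Cfsg.Agent.Lib.H98.TjDef
import Cfsg.Agent.Lib.H39.Degree
import Cfsg.Agent.Lib.H3.CardSup

set_option autoImplicit false

/-!
S3068, piece CASEA.
-/

namespace H53.TjA

open Cfsg H98.Tj
open scoped commutatorElement

universe u

/-- the commutator with `a` of a normalised subgroup -/
theorem comm_mem {G : Type u} [Group G] {A K : Subgroup G} (hAK : A ≤ Subgroup.normalizer (K : Set G)) {x a : G}
    (hx : x ∈ K) (ha : a ∈ A) : ⁅x, a⁆ ∈ K := by
  rw [commutatorElement_def, mul_assoc, mul_assoc]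
  refine mul_mem hx ?_
  have := (Subgroup.mem_normalizer_iff.1 (hAK ha) x⁻¹).1 (inv_mem hx)
  simpa [mul_assoc] using this

theorem exists_layer {G : Type u} [Group G] [Finite G] {p : ℕ} [Fact p.Prime] (S : Sylow p G) {A K : Subgroup G}
    (hA : A ≤ (S : Subgroup G)) (hK : K ≤ (S : Subgroup G)) (hAK : A ≤ Subgroup.normalizer (K : Set G)) {T : Set G}
    (h1 : (1 : G) ∈ T) (hKT : ¬ (K : Set G) ⊆ T) : ∃ x ∈ K, x ∉ T ∧ ∀ a ∈ A, ⁅x, a⁆ ∈ T := by
  classical
  have hnil : Group.IsNilpotent ↥(S : Subgroup G) := S.isPGroup'.isNilpotent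
  obtain ⟨n, hn⟩ := (Subgroup.isNilpotent_iff_lowerCentralSeries (S : Subgroup G)).1 hnil
  have hbot : iterCommutator K A n = ⊥ := by
    apply le_bot_iff.1
    calc iterCommutator K A n ≤ iterCommutator K (S : Subgroup G) n := H39.Degree.iter_mono le_rfl hA n
      _ ≤ _ := H39.Chief.iterCommutator_le_lcs' hK n
      _ = ⊥ := hn
  have hex : ∃ m, ((iterCommutator K A m : Subgroup G) : Set G) ⊆ T := by
    refine ⟨n, ?_⟩
    rw [hbot]
    intro x hx
    rw [SetLike.mem_coe, Subgroup.mem_bot] at hx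
    rw [hx]; exact h1
  have hm := Nat.find_spec hex
  have hmin := fun k => Nat.find_min hex (m := k)
  rcases Nat.eq_zero_or_pos (Nat.find hex) with h0 | h0
  · rw [h0] at hm
    exact absurd hm hKT
  · have h2 := hmin (Nat.find hex - 1) (by omega)
    rw [Set.not_subset] at h2
    obtain ⟨x, hx, hxT⟩ := h2
    refine ⟨x, H39.Degree.iter_anti hAK (Nat.zero_le _) hx, hxT, ?_⟩
    intro a ha
    apply hm
    have e : Nat.find hex = (Nat.find hex - 1) + 1 := by omega
    rw [e]
    exact Subgroup.commutator_mem_commutator hx ha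

theorem norm_of_conj {G : Type u} [Group G] {A K : Subgroup G} (h : ∀ a ∈ A, ∀ y ∈ K, a * y * a⁻¹ ∈ K) :
    A ≤ Subgroup.normalizer (K : Set G) := by
  intro a ha
  rw [Subgroup.mem_normalizer_iff]
  intro y
  refine ⟨h a ha y, fun hy => ?_⟩
  have := h a⁻¹ (inv_mem ha) _ hy
  simpa [mul_assoc] using this

/-- a largest abelian subgroup is self-centralising -/
theorem AA_selfc {G : Type u} [Group G] [Finite G] {S B : Subgroup G} (h : AA S B) :
    S ⊓ Subgroup.centralizer (B : Set G) ≤ B := by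
  intro y hy
  obtain ⟨hyS, hyB⟩ := Subgroup.mem_inf.1 hy
  have hz : Subgroup.zpowers y ≤ Subgroup.centralizer (B : Set G) := by rw [Subgroup.zpowers_le]; exact hyB
  have hzz : Subgroup.zpowers y ≤ Subgroup.centralizer ((Subgroup.zpowers y : Subgroup G) : Set G) := by
    rw [Subgroup.zpowers_le, Subgroup.mem_centralizer_iff]
    rintro w ⟨i, rfl⟩
    exact ((Commute.refl y).zpow_left i).eq
  have h1 := h.max (B ⊔ Subgroup.zpowers y) (sup_le h.le (by rw [Subgroup.zpowers_le]; exact hyS)) (by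
    apply sup_le
    · exact Subgroup.le_centralizer_iff.1 (sup_le h.comm hz)
    · exact Subgroup.le_centralizer_iff.1 (sup_le (Subgroup.le_centralizer_iff.1 hz) hzz))
  have h2 : B = B ⊔ Subgroup.zpowers y := Subgroup.eq_of_le_of_card_ge le_sup_left h1
  rw [h2]
  exact le_sup_right (a := B) (Subgroup.mem_zpowers y)

/-- `f ↦ [f,c]` maps `[F,u,…,u]` into `[V,u,…,u]`. -/
theorem comm_iter {G : Type u} [Group G] {F V : Subgroup G} (hFn : F.Normal) (hVn : V.Normal)
    (hFV : F ≤ Subgroup.centralizer (V : Set G)) (hVF : V ≤ F) {c u : G}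
    (hc : ∀ f ∈ F, ⁅f, c⁆ ∈ V) (hcu : c * u = u * c) (k : ℕ) :
    ∀ f ∈ iterCommutator F (Subgroup.zpowers u) k, ⁅f, c⁆ ∈ iterCommutator V (Subgroup.zpowers u) k := by
  have nF : Subgroup.zpowers u ≤ Subgroup.normalizer (F : Set G) := by rw [Subgroup.normalizer_eq_top]; exact le_top
  have nV : Subgroup.zpowers u ≤ Subgroup.normalizer (V : Set G) := by rw [Subgroup.normalizer_eq_top]; exact le_top
  have hVc : ∀ v ∈ V, ∀ f ∈ F, f * v = v * f := fun v hv f hf => (Subgroup.mem_centralizer_iff.1 (hFV hf) v hv).symm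
  have hcw : ∀ w ∈ Subgroup.zpowers u, c * w = w * c := by
    rintro w ⟨i, rfl⟩
    exact ((show Commute c u from hcu).zpow_right i).eq
  have hmul : ∀ f ∈ F, ∀ f' ∈ F, ⁅f * f', c⁆ = ⁅f, c⁆ * ⁅f', c⁆ := by
    intro f hf f' hf'
    have e0 : f * ⁅f', c⁆ * f⁻¹ = ⁅f', c⁆ := by
      rw [hVc _ (hc f' hf') f hf, mul_assoc, mul_inv_cancel, mul_one]
    rw [commutatorElement_mul_left_eq_conj_mul, e0]
    exact hVc _ (hc f hf) _ (hVF (hc f' hf'))
  have hinv : ∀ f ∈ F, ⁅f⁻¹, c⁆ = ⁅f, c⁆⁻¹ := by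
    intro f hf
    have := hmul f⁻¹ (inv_mem hf) f hf
    rw [inv_mul_cancel, commutatorElement_one_left] at this
    exact eq_inv_of_mul_eq_one_left this.symm
  induction k with
  | zero => intro f hf; exact hc f hf
  | succ k ih =>
    have hle : iterCommutator F (Subgroup.zpowers u) k ≤ F := H39.Degree.iter_anti nF (Nat.zero_le k)
    -- the subgroup of good `f`
    let L : Subgroup G :=
      { carrier := {f | f ∈ F ∧ ⁅f, c⁆ ∈ iterCommutator V (Subgroup.zpowers u) (k + 1)}
        one_mem' := ⟨one_mem _, by simp⟩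
        mul_mem' := by
          rintro a b ⟨ha, ha'⟩ ⟨hb, hb'⟩
          refine ⟨mul_mem ha hb, ?_⟩
          rw [hmul a ha b hb]
          exact mul_mem ha' hb'
        inv_mem' := by
          rintro a ⟨ha, ha'⟩
          refine ⟨inv_mem ha, ?_⟩
          rw [hinv a ha]
          exact inv_mem ha' }
    have hL : iterCommutator F (Subgroup.zpowers u) (k + 1) ≤ L := by
      show ⁅iterCommutator F (Subgroup.zpowers u) k, Subgroup.zpowers u⁆ ≤ L
      rw [Subgroup.commutator_le]
      intro f hf w hw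
      have hfF := hle hf
      have hwf : w * f⁻¹ * w⁻¹ ∈ F := hFn.conj_mem _ (inv_mem hfF) w
      have e1 : ⁅f, w⁆ = f * (w * f⁻¹ * w⁻¹) := by rw [commutatorElement_def]; group
      refine ⟨by rw [e1]; exact mul_mem hfF hwf, ?_⟩
      rw [e1, hmul f hfF _ hwf]
      have e2 : ⁅w * f⁻¹ * w⁻¹, c⁆ = w * ⁅f, c⁆⁻¹ * w⁻¹ := by
        rw [← hinv f hfF]
        rw [commutatorElement_def, commutatorElement_def]
        have hcw' := hcw w hw
        have h3 : w⁻¹ * c = c * w⁻¹ := by
          have := (show Commute c w from hcw')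
          exact this.inv_right.eq.symm
        calc w * f⁻¹ * w⁻¹ * c * (w * f⁻¹ * w⁻¹)⁻¹ * c⁻¹ = w * f⁻¹ * (w⁻¹ * c) * w * f * w⁻¹ * c⁻¹ := by group
          _ = w * f⁻¹ * (c * w⁻¹) * w * f * w⁻¹ * c⁻¹ := by rw [h3]
          _ = w * f⁻¹ * c * f * (c * w)⁻¹ := by group
          _ = w * f⁻¹ * c * f * (w * c)⁻¹ := by rw [hcw']
          _ = w * (f⁻¹ * c * f⁻¹⁻¹ * c⁻¹) * w⁻¹ := by group
      rw [e2]
      have e3 : ⁅f, c⁆ * (w * ⁅f, c⁆⁻¹ * w⁻¹) = ⁅⁅f, c⁆, w⁆ := by
        rw [commutatorElement_def ⁅f, c⁆ w]; group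
      rw [e3]
      exact Subgroup.commutator_mem_commutator (ih f hf) hw
    intro f hf
    exact (hL hf).2

theorem caseA {G : Type u} [Group G] [Finite G] {p : ℕ} [Fact p.Prime] (S : Sylow p G) {Q X F V A : Subgroup G}
    (hQ : Q = pCore p G) (h : Cfg (S : Subgroup G) Q X F V A)
    (hcnt : ∀ E : Subgroup G, E ≤ F → V ≤ E → A ⊓ F ≤ E → E ≤ Subgroup.centralizer (E : Set G) →
      A ≤ Subgroup.normalizer (E : Set G) → Cnt Q A E)
    (hq : ∀ v ∈ V, ∀ a ∈ A, ⁅v, a⁆ ∈ Subgroup.centralizer (A : Set G)) :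
    ∀ u ∈ A, iterCommutator F (Subgroup.zpowers u) 5 ≤ V := by
  classical
  intro u hu
  have hVn := h.Vn
  have hFn := h.Fn
  have hAS : A ≤ (S : Subgroup G) := h.lex.aa.le
  have hFS : F ≤ (S : Subgroup G) := h.FX.trans (h.XQ.trans h.QS)
  have hVF : V ≤ F := by rw [h.V_eq]; exact inf_le_left
  have hVX : V ≤ Subgroup.centralizer (X : Set G) := by rw [h.V_eq]; exact inf_le_right
  have hVCF : V ≤ Subgroup.centralizer (F : Set G) := hVX.trans (Subgroup.centralizer_le h.FX)
  have hFCV : F ≤ Subgroup.centralizer (V : Set G) := Subgroup.le_centralizer_iff.1 hVCF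
  have hVV : V ≤ Subgroup.centralizer (V : Set G) := hVF.trans hFCV
  have hzu : Subgroup.zpowers u ≤ A := by rw [Subgroup.zpowers_le]; exact hu
  have nF : ∀ H : Subgroup G, H ≤ Subgroup.normalizer (F : Set G) := fun H => by
    rw [Subgroup.normalizer_eq_top]; exact le_top
  have nV : ∀ H : Subgroup G, H ≤ Subgroup.normalizer (V : Set G) := fun H => by
    rw [Subgroup.normalizer_eq_top]; exact le_top
  -- the double commutator of a subgroup of good elements
  have dbl : ∀ K : Subgroup G, (∀ v ∈ K, ∀ a ∈ A, ⁅v, a⁆ ∈ Subgroup.centralizer (A : Set G)) →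
      iterCommutator K (Subgroup.zpowers u) 2 = ⊥ := by
    intro K hK
    show ⁅⁅K, Subgroup.zpowers u⁆, Subgroup.zpowers u⁆ = ⊥
    rw [Subgroup.commutator_eq_bot_iff_le_centralizer]
    refine le_trans ?_ (Subgroup.centralizer_le hzu)
    rw [Subgroup.commutator_le]
    intro v hv w hw
    exact hK v hv w (hzu hw)
  have hV2 := dbl V hq
  have hFV : ⁅F, F⁆ ≤ V := (Subgroup.commutator_mono le_rfl (h.FX.trans h.XQ)).trans h.FQ
  -- a maximal `E`
  obtain ⟨E, hE, hEmax⟩ : ∃ E : Subgroup G, (E ≤ F ∧ V ≤ E ∧ A ⊓ F ≤ E ∧ E ≤ Subgroup.centralizer (E : Set G) ∧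
      A ≤ Subgroup.normalizer (E : Set G)) ∧ ∀ E' : Subgroup G, (E' ≤ F ∧ V ≤ E' ∧ A ⊓ F ≤ E' ∧
      E' ≤ Subgroup.centralizer (E' : Set G) ∧ A ≤ Subgroup.normalizer (E' : Set G)) → E ≤ E' → E' ≤ E := by
    have hfin : {E : Subgroup G | E ≤ F ∧ V ≤ E ∧ A ⊓ F ≤ E ∧ E ≤ Subgroup.centralizer (E : Set G) ∧
      A ≤ Subgroup.normalizer (E : Set G)}.Finite := Set.toFinite _
    have hne : {E : Subgroup G | E ≤ F ∧ V ≤ E ∧ A ⊓ F ≤ E ∧ E ≤ Subgroup.centralizer (E : Set G) ∧
      A ≤ Subgroup.normalizer (E : Set G)}.Nonempty := by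
      refine ⟨V ⊔ (A ⊓ F), sup_le hVF inf_le_right, le_sup_left, le_sup_right, ?_, ?_⟩
      · apply sup_le
        · apply Subgroup.le_centralizer_iff.1
          exact sup_le hVV (inf_le_right.trans hFCV)
        · apply Subgroup.le_centralizer_iff.1
          refine sup_le (hVCF.trans (Subgroup.centralizer_le inf_le_right)) ?_
          exact inf_le_left.trans (h.lex.aa.comm.trans (Subgroup.centralizer_le inf_le_left))
      · refine le_trans ?_ (Subgroup.normalizer_inf_normalizer_le_normalizer_sup _ _)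
        refine le_inf (nV A) ?_
        refine le_trans ?_ (Subgroup.centralizer_le_normalizer _)
        exact h.lex.aa.comm.trans (Subgroup.centralizer_le inf_le_left)
    obtain ⟨E, hE⟩ := hfin.exists_maximal hne
    exact ⟨E, hE.1, fun E' h1 h2 => hE.2 h1 h2⟩
  obtain ⟨hEF, hVE, hAE, hEE, hAnE⟩ := hE
  have hES : E ≤ (S : Subgroup G) := hEF.trans hFS
  -- `E` is self centralizing in `F`
  have hself : F ⊓ Subgroup.centralizer (E : Set G) ≤ E := by
    by_contra hcon
    have hnK : A ≤ Subgroup.normalizer ((F ⊓ Subgroup.centralizer (E : Set G) : Subgroup G) : Set G) := by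
      intro a ha
      rw [Subgroup.mem_normalizer_iff]
      intro y
      have h1 := Subgroup.mem_normalizer_iff.1 (nF A ha) y
      have h2 := Subgroup.mem_normalizer_iff.1 ((hAnE.trans (H39.Comm.normalizer_le_normalizer_centralizer E)) ha) y
      exact and_congr h1 h2
    obtain ⟨x, hxK, hxE, hxA⟩ := exists_layer S (A := A) (K := F ⊓ Subgroup.centralizer (E : Set G)) hAS
      (inf_le_left.trans hFS) hnK (T := (E : Set G)) (one_mem E) hcon
    have hxF := (Subgroup.mem_inf.1 hxK).1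
    have hxC := (Subgroup.mem_inf.1 hxK).2
    have hzE : Subgroup.zpowers x ≤ Subgroup.centralizer (E : Set G) := by rw [Subgroup.zpowers_le]; exact hxC
    have hzz : Subgroup.zpowers x ≤ Subgroup.centralizer ((Subgroup.zpowers x : Subgroup G) : Set G) := by
      rw [Subgroup.zpowers_le, Subgroup.mem_centralizer_iff]
      rintro y ⟨i, rfl⟩
      exact ((Commute.refl x).zpow_left i).eq
    have := hEmax (E ⊔ Subgroup.zpowers x) ⟨sup_le hEF (by rw [Subgroup.zpowers_le]; exact hxF), hVE.trans le_sup_left,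
      hAE.trans le_sup_left, ?_, ?_⟩ le_sup_left
    · exact hxE (this (le_sup_right (a := E) (Subgroup.mem_zpowers x)))
    · apply sup_le
      · exact Subgroup.le_centralizer_iff.1 (sup_le hEE hzE)
      · exact Subgroup.le_centralizer_iff.1 (sup_le (Subgroup.le_centralizer_iff.1 hzE) hzz)
    · intro a ha
      have hmap : ∀ a ∈ A, ∀ y ∈ E ⊔ Subgroup.zpowers x, a * y * a⁻¹ ∈ E ⊔ Subgroup.zpowers x := by
        intro a ha y hy
        have : (E ⊔ Subgroup.zpowers x).map (MulAut.conj a).toMonoidHom ≤ E ⊔ Subgroup.zpowers x := by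
          rw [Subgroup.map_sup]
          apply sup_le
          · refine le_trans ?_ le_sup_left
            rintro _ ⟨e, he, rfl⟩
            exact (Subgroup.mem_normalizer_iff.1 (hAnE ha) e).1 he
          · rw [MonoidHom.map_zpowers, Subgroup.zpowers_le]
            show a * x * a⁻¹ ∈ _
            have e1 : a * x * a⁻¹ = ⁅x, a⁆⁻¹ * x := by rw [commutatorElement_def]; group
            rw [e1]
            exact mul_mem (le_sup_left (a := E) (inv_mem (hxA a ha))) (le_sup_right (a := E) (Subgroup.mem_zpowers x))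
        exact this ⟨y, hy, rfl⟩
      rw [Subgroup.mem_normalizer_iff]
      intro y
      refine ⟨hmap a ha y, fun hy => ?_⟩
      have := hmap a⁻¹ (inv_mem ha) _ hy
      simpa [mul_assoc] using this
  have hEC : E ≤ Subgroup.centralizer (V : Set G) := hEF.trans hFCV
  have hEFV : ⁅E, F⁆ ≤ V := (Subgroup.commutator_mono hEF le_rfl).trans hFV
  -- pairing with a subgroup of good elements
  have pair : ∀ K : Subgroup G, K ≤ E → Subgroup.zpowers u ≤ Subgroup.normalizer (K : Set G) →
      (∀ v ∈ K, ∀ a ∈ A, ⁅v, a⁆ ∈ Subgroup.centralizer (A : Set G)) →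
      iterCommutator F (Subgroup.zpowers u) 3 ≤ Subgroup.centralizer (K : Set G) := by
    intro K hKE hKn hK x hx
    rw [Subgroup.mem_centralizer_iff]
    intro m hm
    have := H39.Degree.pairing (X := F) (M := K) (M' := ⊥) (W := V) (g := u)
      ((Subgroup.commutator_mono hKE le_rfl).trans hEFV) hFCV (hKE.trans hEC) hVV (nF _) hKn (nV _) bot_le
      (i := 2) (le_of_eq (dbl K hK)) 3 0 x hx m hm
    rw [show 3 + 0 + 1 - 2 = 2 from rfl, hV2, Subgroup.mem_bot, commutatorElement_eq_one_iff_mul_comm] at this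
    exact this
  by_cases hgood : ∀ x ∈ E, ∀ a ∈ A, ⁅x, a⁆ ∈ Subgroup.centralizer (A : Set G)
  · have h3 : iterCommutator F (Subgroup.zpowers u) 3 ≤ E :=
      (le_inf (H39.Degree.iter_anti (nF _) (Nat.zero_le 3)) (pair E le_rfl (hzu.trans hAnE) hgood)).trans hself
    have h5 : iterCommutator F (Subgroup.zpowers u) 5 ≤ iterCommutator E (Subgroup.zpowers u) 2 :=
      Subgroup.commutator_mono (Subgroup.commutator_mono h3 le_rfl) le_rfl
    rw [dbl E hgood] at h5
    exact h5.trans bot_le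
  · -- a bad element
    have hT : ¬ ((E : Set G) ⊆ {x | ∀ a ∈ A, ⁅x, a⁆ ∈ Subgroup.centralizer (A : Set G)}) :=
      fun hc => hgood fun x hx => hc hx
    obtain ⟨x, hxE, hxT, hxA⟩ := exists_layer S (A := A) (K := E) hAS hES hAnE
      (T := {x | ∀ a ∈ A, ⁅x, a⁆ ∈ Subgroup.centralizer (A : Set G)}) (by intro a ha; simp [one_mem]) hT
    set CC := Subgroup.centralizer (A : Set G) with hCC
    have hcr : ∀ z ∈ CC, ∀ a ∈ A, a * z = z * a := fun z hz a ha => Subgroup.mem_centralizer_iff.1 hz a ha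
    have hAA : ∀ a ∈ A, ∀ b ∈ A, a * b = b * a := fun a ha b hb =>
      Subgroup.mem_centralizer_iff.1 (h.lex.aa.comm hb) a ha
    have hEcomm : ∀ y ∈ E, ∀ z ∈ E, y * z = z * y := fun y hy z hz =>
      (Subgroup.mem_centralizer_iff.1 (hEE hz) y hy)
    have hEmul : ∀ y ∈ E, ∀ z ∈ E, ∀ a ∈ A, ⁅y * z, a⁆ = ⁅y, a⁆ * ⁅z, a⁆ := by
      intro y hy z hz a ha
      have hz' := comm_mem hAnE hz ha
      have e0 : y * ⁅z, a⁆ * y⁻¹ = ⁅z, a⁆ := by rw [hEcomm y hy _ hz', mul_assoc, mul_inv_cancel, mul_one]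
      rw [commutatorElement_mul_left_eq_conj_mul, e0]
      exact hEcomm _ hz' _ (comm_mem hAnE hy ha)
    have hEinv : ∀ y ∈ E, ∀ a ∈ A, ⁅y⁻¹, a⁆ = ⁅y, a⁆⁻¹ := by
      intro y hy a ha
      have := hEmul y⁻¹ (inv_mem hy) y hy a ha
      rw [inv_mul_cancel, commutatorElement_one_left] at this
      exact eq_inv_of_mul_eq_one_left this.symm
    let E1 : Subgroup G :=
      { carrier := {y | y ∈ E ∧ ∀ a ∈ A, ⁅y, a⁆ ∈ CC}
        one_mem' := ⟨one_mem _, fun a _ => by simp [one_mem]⟩
        mul_mem' := by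
          rintro y z ⟨hy, hy'⟩ ⟨hz, hz'⟩
          refine ⟨mul_mem hy hz, fun a ha => ?_⟩
          rw [hEmul y hy z hz a ha]
          exact mul_mem (hy' a ha) (hz' a ha)
        inv_mem' := by
          rintro y ⟨hy, hy'⟩
          refine ⟨inv_mem hy, fun a ha => ?_⟩
          rw [hEinv y hy a ha]
          exact inv_mem (hy' a ha) }
    have hE1E : E1 ≤ E := fun y hy => hy.1
    have hfix : E ⊓ CC ≤ E1 := by
      intro z hz
      obtain ⟨hz1, hz2⟩ := Subgroup.mem_inf.1 hz
      refine ⟨hz1, fun a ha => ?_⟩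
      have : ⁅z, a⁆ = 1 := by
        rw [commutatorElement_eq_one_iff_mul_comm]; exact (hcr z hz2 a ha).symm
      rw [this]; exact one_mem _
    have hE1n : A ≤ Subgroup.normalizer (E1 : Set G) := by
      apply norm_of_conj
      intro a ha y hy
      have e1 : a * y * a⁻¹ = ⁅y, a⁆⁻¹ * y := by rw [commutatorElement_def]; group
      rw [e1]
      exact mul_mem (inv_mem (hfix (Subgroup.mem_inf.2 ⟨comm_mem hAnE hy.1 ha, hy.2 a ha⟩))) hy
    -- the group `C`
    have hxmul : ∀ a ∈ A, ∀ b ∈ A, ⁅x, b⁆ ∈ CC → ⁅x, a * b⁆ = ⁅x, a⁆ * ⁅x, b⁆ := by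
      intro a ha b hb hb'
      have e0 : a * ⁅x, b⁆ * a⁻¹ = ⁅x, b⁆ := by rw [hcr _ hb' a ha, mul_assoc, mul_inv_cancel, mul_one]
      rw [commutatorElement_mul_right_eq_mul_conj, mul_assoc, mul_assoc, ← mul_assoc a, e0]
    let C : Subgroup G :=
      { carrier := {c | c ∈ A ∧ ⁅x, c⁆ ∈ CC}
        one_mem' := ⟨one_mem _, by simp [one_mem]⟩
        mul_mem' := by
          rintro a b ⟨ha, ha'⟩ ⟨hb, hb'⟩
          refine ⟨mul_mem ha hb, ?_⟩
          rw [hxmul a ha b hb hb']
          exact mul_mem ha' hb'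
        inv_mem' := by
          rintro a ⟨ha, ha'⟩
          refine ⟨inv_mem ha, ?_⟩
          have := hxmul a⁻¹ (inv_mem ha) a ha ha'
          rw [inv_mul_cancel, commutatorElement_one_right] at this
          rw [eq_inv_of_mul_eq_one_left this.symm]
          exact inv_mem ha' }
    have hCA : C ≤ A := fun c hc => hc.1
    set M := Subgroup.closure {y | ∃ a ∈ A, y = ⁅x, a⁆} ⊔ (E ⊓ CC) with hM
    have hEcnt := hcnt E hEF hVE hAE hEE hAnE
    have hcard := hEcnt.cx x hxE C (fun c => Iff.rfl) M hM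
    have hME1 : M ≤ E1 := by
      apply sup_le _ hfix
      rw [Subgroup.closure_le]
      rintro _ ⟨a, ha, rfl⟩
      exact ⟨comm_mem hAnE hxE ha, hxA a ha⟩
    have hME : M ≤ E := hME1.trans hE1E
    have hAself : (S : Subgroup G) ⊓ CC ≤ A := AA_selfc h.lex.aa
    have hECA : E ⊓ CC ≤ A := (inf_le_inf_right _ hES).trans hAself
    have hMC : M ≤ Subgroup.centralizer (C : Set G) := by
      apply sup_le
      · rw [Subgroup.closure_le]
        rintro _ ⟨a, ha, rfl⟩
        rw [SetLike.mem_coe, Subgroup.mem_centralizer_iff]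
        rintro c ⟨hcA, hcz⟩
        set z := ⁅x, c⁆ with hz
        have hzE : z ∈ E := comm_mem hAnE hxE hcA
        have e1 : c * x * c⁻¹ = z⁻¹ * x := by rw [hz, commutatorElement_def]; group
        have e2 : c * a * c⁻¹ = a := by rw [hAA c hcA a ha, mul_assoc, mul_inv_cancel, mul_one]
        have e3 : c * ⁅x, a⁆ * c⁻¹ = ⁅x, a⁆ := by
          have e4 : c * ⁅x, a⁆ * c⁻¹ = ⁅c * x * c⁻¹, c * a * c⁻¹⁆ := by
            rw [commutatorElement_def, commutatorElement_def]; group
          rw [e4, e1, e2, hEmul _ (inv_mem hzE) x hxE a ha, hEinv z hzE a ha]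
          have : ⁅z, a⁆ = 1 := by
            rw [commutatorElement_eq_one_iff_mul_comm]; exact (hcr z hcz a ha).symm
          rw [this, inv_one, one_mul]
        calc c * ⁅x, a⁆ = c * ⁅x, a⁆ * c⁻¹ * c := by group
          _ = ⁅x, a⁆ * c := by rw [e3]
      · exact inf_le_right.trans (Subgroup.centralizer_le hCA)
    have hMinf : M ⊓ C = E ⊓ CC := by
      apply le_antisymm
      · exact le_inf (inf_le_left.trans hME) (inf_le_right.trans (hCA.trans h.lex.aa.comm))
      · refine le_inf le_sup_right ?_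
        intro z hz
        refine ⟨hECA hz, ?_⟩
        obtain ⟨hz1, hz2⟩ := Subgroup.mem_inf.1 hz
        have : ⁅x, z⁆ = 1 := by
          rw [commutatorElement_eq_one_iff_mul_comm]; exact hEcomm x hxE z hz1
        rw [this]; exact one_mem _
    have hBcard : Nat.card ↥(M ⊔ C) = Nat.card A := by
      have h1 := H3.CardSup.card_sup_mul_card_inf M C (hMC.trans (Subgroup.centralizer_le_normalizer _))
      rw [hMinf] at h1
      have hpos : 0 < Nat.card ↥(E ⊓ CC) := Nat.card_pos
      apply Nat.eq_of_mul_eq_mul_right hpos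
      rw [h1, ← hcard, mul_comm]
    have hBB : AA (S : Subgroup G) (M ⊔ C) := by
      refine ⟨sup_le (hME.trans hES) (hCA.trans hAS), ?_, fun B hB hB' => ?_⟩
      · apply sup_le
        · exact Subgroup.le_centralizer_iff.1 (sup_le (hME.trans (hEE.trans (Subgroup.centralizer_le hME)))
            (Subgroup.le_centralizer_iff.1 hMC))
        · exact Subgroup.le_centralizer_iff.1 (sup_le hMC (hCA.trans (h.lex.aa.comm.trans (Subgroup.centralizer_le hCA))))
      · rw [hBcard]; exact h.lex.aa.max B hB hB'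
    have hCQ : C ≤ Q := by
      intro c hc
      by_contra hcQ
      exact hxT (hEcnt.c0 c hc.1 hcQ x hxE hc.2)
    have h3M : iterCommutator F (Subgroup.zpowers u) 3 ≤ Subgroup.centralizer (M : Set G) :=
      (pair E1 hE1E (hzu.trans hE1n) (fun v hv => hv.2)).trans (Subgroup.centralizer_le hME1)
    have h3C : iterCommutator F (Subgroup.zpowers u) 3 ≤ Subgroup.centralizer (C : Set G) := by
      refine (H39.Degree.iter_anti (nF _) (show 2 ≤ 3 by norm_num)).trans ?_
      intro f hf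
      rw [Subgroup.mem_centralizer_iff]
      intro c hc
      have := comm_iter hFn hVn hFCV hVF (c := c) (u := u)
        (fun f hf => h.FQ (Subgroup.commutator_mem_commutator hf (hCQ hc))) (hAA c hc.1 u hu) 2 f hf
      rw [hV2, Subgroup.mem_bot, commutatorElement_eq_one_iff_mul_comm] at this
      exact this.symm
    have h3B : iterCommutator F (Subgroup.zpowers u) 3 ≤ M ⊔ C := by
      refine le_trans ?_ (AA_selfc hBB)
      refine le_inf ((H39.Degree.iter_anti (nF _) (Nat.zero_le 3)).trans hFS) ?_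
      exact Subgroup.le_centralizer_iff.1 (sup_le (Subgroup.le_centralizer_iff.1 h3M) (Subgroup.le_centralizer_iff.1 h3C))
    have h4 : iterCommutator F (Subgroup.zpowers u) 4 ≤ E ⊓ CC := by
      refine (Subgroup.commutator_mono h3B hzu).trans ?_
      apply H39.Comm.sup_commutator_le
      · refine le_trans ?_ (Subgroup.centralizer_le_normalizer _)
        exact hME.trans (hEE.trans (Subgroup.centralizer_le inf_le_left))
      · refine le_trans ?_ (Subgroup.centralizer_le_normalizer _)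
        exact hCA.trans (Subgroup.le_centralizer_iff.1 inf_le_right)
      · rw [Subgroup.commutator_le]
        intro m hm a ha
        exact Subgroup.mem_inf.2 ⟨comm_mem hAnE (hME hm) ha, (hME1 hm).2 a ha⟩
      · rw [Subgroup.commutator_le]
        intro c hc a ha
        have : ⁅c, a⁆ = 1 := by
          rw [commutatorElement_eq_one_iff_mul_comm]; exact hAA c (hCA hc) a ha
        rw [this]; exact one_mem _
    have h5 : iterCommutator F (Subgroup.zpowers u) 5 ≤ ⊥ := by
      refine (Subgroup.commutator_mono h4 hzu).trans ?_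
      rw [Subgroup.commutator_le]
      intro z hz a ha
      have : ⁅z, a⁆ = 1 := by
        rw [commutatorElement_eq_one_iff_mul_comm]; exact (hcr z hz.2 a ha).symm
      rw [this]; exact one_mem _
    exact h5.trans bot_le

end H53.TjA
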